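import Cfsg.Agent.TwoF.DC.TFG.Cmb
import Cfsg.Agent.TwoF.DC.TE.Cmb
import Cfsg.Agent.TwoF.DC.Fin.Defs

/-!
# TwoF, defining characteristic, types G2 and F4 (3): quasi-minuscule modules, assembly of `Comb` (helper25)
-/

set_option autoImplicit false
set_option linter.unusedSectionVars false
set_option linter.unusedVariables false

namespace Cfsg.Agent.TwoF.DC.TF

open Module TE

section qm

variable {ι Φ : Type} [Fintype ι] [DecidableEq ι] [Fintype Φ] [DecidableEq Φ]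

/-- `σ` is the highest short root, `ω` its weight -/
structure QM (R : RC ι Φ) (sh : Φ → Prop) (σ : Φ) (ω : ι → ℕ) : Prop where
  wt : R.wt (true, σ) = fun i => (ω i : ℤ)
  hσ : sh σ
  sh_s : ∀ i b, sh b → b = R.zi i ∨ sh (R.s i b)
  dom : ∀ c : ι → ℕ, Dom ((fun i => (ω i : ℤ)) - R.toWt fun j => c j) →
    (∀ j, c j = 0) ∨ ((fun i => (ω i : ℤ)) - R.toWt fun j => c j) = 0

namespace QM

variable {R : RC ι Φ} {sh : Φ → Prop} {σ : Φ} {ω : ι → ℕ} (Q : QM R sh σ ω) {p : ℕ} {k L : Type} [Field k]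
  [AddCommGroup L] [Module k L] {H : HW R p k L} (hl : H.lam = ω)
include Q

theorem sh_sr (i : ι) {x : Bool × Φ} (h : sh x.2) : sh (R.sr i x).2 := by
  unfold RC.sr
  split_ifs with h1
  · exact h
  · exact (Q.sh_s i _ h).resolve_left h1

include hl

theorem lz_eq : H.lz = R.wt (true, σ) := by rw [Q.wt, ← hl]; rfl

theorem wts {μ : ι → ℤ} (h : H.IsWt μ) : μ = 0 ∨ H.Ext μ := by
  refine H.isWt_mem (A := {μ | μ = 0 ∨ H.Ext μ}) (fun μ h1 h2 => ?_) (fun μ h1 i => ?_) h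
  · obtain ⟨c, rfl⟩ := H.le_top μ h1
    rw [hl] at h2 ⊢
    rcases Q.dom c h2 with h3 | h3
    · right
      rw [show (fun j => (c j : ℤ)) = 0 from funext fun j => by rw [h3]; rfl, R.toWt_zero, sub_zero, ← hl]
      exact H.ext_lz
    · exact Or.inl h3
  · rcases h1 with rfl | h1
    · exact Or.inl (R.swl_zero [i])
    · exact Or.inr (h1.sw i)

theorem ext {μ : ι → ℤ} (h : H.Ext μ) : ∃ x : Bool × Φ, sh x.2 ∧ μ = R.wt x :=
  h.mem (A := {μ | ∃ x : Bool × Φ, sh x.2 ∧ μ = R.wt x}) ⟨_, Q.hσ, Q.lz_eq hl⟩ fun _ ⟨x, h1, h2⟩ i =>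
    ⟨_, Q.sh_sr i h1, by rw [h2, R.wt_sr]⟩

theorem m_le {μ : ι → ℤ} (h : μ ≠ 0) : H.m μ ≤ 1 := by
  by_cases h1 : H.IsWt μ
  · exact (((Q.wts hl h1).resolve_left h).m_eq).le
  · rw [H.isWt_iff_m] at h1; omega

theorem not_wt {b : Φ} {n : ℕ} (hn : 0 < n) (h : H.IsWt ((n : ℤ) • R.wt (true, b))) :
    ∃ x : Bool × Φ, sh x.2 ∧ R.vec x = (n : ℤ) • R.vec (true, b) := by
  obtain ⟨x, h1, h2⟩ := Q.ext hl ((Q.wts hl h).resolve_left (smul_ne_zero (by omega) (R.wt_ne_zero _)))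
  exact ⟨x, h1, R.toWt_inj (by rw [R.toWt_smul]; exact h2.symm)⟩

theorem not_wt' {b : Φ} (hb : ¬ sh b) {n : ℕ} (hn : 0 < n) : ¬ H.IsWt ((n : ℤ) • R.wt (true, b)) := fun h => by
  obtain ⟨x, h1, h2⟩ := Q.not_wt hl hn h
  rcases R.eq_or_ng_of_smul (x := (true, b)) (y := x) (m := 1) (n := n) one_ne_zero (by rw [one_smul, h2]) with rfl | rfl
  · exact hb h1
  · exact hb h1

theorem w0_le {i i' : ι} (h : ∀ j, sh (R.zi j) → j = i ∨ j = i') :
    H.w 0 ≤ (H.w (R.wt (true, R.zi i))).map (H.E (false, R.zi i) 1) ⊔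
      (H.w (R.wt (true, R.zi i'))).map (H.E (false, R.zi i') 1) := by
  refine (H.gen 0 fun h0 => R.wt_ne_zero _ ((Q.lz_eq hl).symm.trans h0.symm)).trans
    (iSup_le fun j => iSup_le fun n => iSup_le fun hn => ?_)
  rw [zero_add]
  by_cases h1 : H.IsWt ((n : ℤ) • R.wt (true, R.zi j))
  swap
  · rw [not_not.1 h1, Submodule.map_bot]; exact bot_le
  obtain ⟨x, h2, h3⟩ := Q.not_wt hl hn h1
  have h4 : x = (true, R.zi j) := by
    rcases R.eq_or_ng_of_smul (x := (true, R.zi j)) (y := x) (m := 1) (n := n) one_ne_zero (by rw [one_smul, h3])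
      with h4 | h4
    · exact h4
    · have h5 := congrFun h3 j
      rw [h4, R.vec_ng, R.vec_zi] at h5
      simp at h5
  have h5 := congrFun h3 j
  rw [h4, R.vec_zi] at h5
  obtain rfl : n = 1 := by simp at h5; omega
  rw [Nat.cast_one, one_smul]
  rcases h j (by rwa [h4] at h2) with rfl | rfl
  · exact le_sup_left
  · exact le_sup_right

theorem m0_le {i i' : ι} (h : ∀ j, sh (R.zi j) → j = i ∨ j = i') : H.m 0 ≤ 2 := by
  have := H.fd
  refine (Submodule.finrank_mono (Q.w0_le hl h)).trans ((Submodule.finrank_add_le_finrank_add_finrank _ _).trans ?_)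
  exact add_le_add ((Submodule.finrank_map_le _ _).trans (Q.m_le hl (R.wt_ne_zero _)))
    ((Submodule.finrank_map_le _ _).trans (Q.m_le hl (R.wt_ne_zero _)))

/-- one short node, characteristic two -/
theorem not_wt_zero [CharP k p] (hp : p = 2) {i : ι} (h : ∀ j, sh (R.zi j) → j = i) : ¬ H.IsWt 0 := by
  have h1 : ∀ j, ¬ Act H 0 (true, R.zi j) := by
    rintro j ⟨v, hv, h0⟩
    by_cases h2 : j = i
    · subst h2
      have h3 := Q.w0_le hl (i := j) (i' := j) (fun j' hj => Or.inl (h j' hj)) hv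
      rw [sup_idem] at h3
      obtain ⟨u, hu, rfl⟩ := h3
      by_cases h4 : u = 0
      · exact h0 (by rw [h4, map_zero, map_zero])
      have h5 := (Q.wts hl (H.isWt_of_mem hu h4)).resolve_left (R.wt_ne_zero _)
      obtain ⟨ε, hε⟩ := H.ef (R.zi j)
      have h6 := hε _ u hu
      rw [h5.E_eq_zero (x := (true, R.zi j)) (by rw [R.pair_wt_self]; omega) Nat.one_pos hu, map_zero, sub_zero, R.pair_wt_self,
        (CharP.intCast_eq_zero_iff k p 2).2 (by rw [hp]; rfl), mul_zero, zero_smul] at h6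
      exact h0 h6
    · have h3 := H.E1_w (true, R.zi j) hv
      rw [zero_add] at h3
      have h4 := Q.not_wt' hl (fun h4 => h2 (h j h4)) Nat.one_pos
      rw [Nat.cast_one, one_smul] at h4
      exact h4 (H.isWt_of_mem h3 h0)
  have h2 : ∀ (l : List ι) x, Act H 0 x → Act H 0 (R.srl l x) := fun l x hx => by
    induction l with
    | nil => exact hx
    | cons j l ih =>
      have h3 := ih.sw j
      rwa [show R.sw j 0 = 0 from R.swl_zero [j]] at h3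
  intro h3
  obtain ⟨v, hv, h0⟩ := H.isWt_iff.1 h3
  have h4 : v ∈ H.w H.lz := H.curtis v fun b => by
    by_contra h4
    obtain ⟨l, j, h5⟩ := R.exists_srl_zi (true, b)
    have h6 := h2 l.reverse _ ⟨v, hv, h4⟩
    rw [h5, R.srl_rev_srl] at h6
    exact h1 j h6
  have h5 := H.pr_of_ne hv (ν := H.lz) fun h => R.wt_ne_zero _ ((Q.lz_eq hl).symm.trans h.symm)
  rw [H.pr_of_mem h4] at h5
  exact h0 h5

theorem sum_m_le (A : Finset (Bool × Φ)) : ∑ μ ∈ A.image R.wt, H.m μ ≤ A.card := by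
  classical
  refine le_trans (Finset.sum_le_card_nsmul _ _ 1 fun μ hμ => ?_) (by simpa using Finset.card_image_le)
  obtain ⟨x, -, rfl⟩ := Finset.mem_image.1 hμ
  exact Q.m_le hl (R.wt_ne_zero _)

theorem cG_le (S : Finset Φ) (A : Finset (Bool × Φ))
    (hA : ∀ x : Bool × Φ, sh x.2 → x ∈ A ∨ ∀ b ∈ S, 0 ≤ R.pair (R.wt x) (true, b)) : H.cG S ≤ H.m 0 + A.card := by
  classical
  refine (H.cG_le_sum S (insert 0 (A.image R.wt)) fun μ h1 h2 b hb n hn => ?_).trans ?_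
  · rw [Finset.mem_insert, not_or] at h2
    have h3 := (Q.wts hl h1).resolve_left h2.1
    obtain ⟨x, h4, rfl⟩ := Q.ext hl h3
    exact h3.not_isWt ((hA x h4).resolve_left (fun h => h2.2 (Finset.mem_image_of_mem _ h)) b hb) (by omega)
  · rw [Finset.sum_insert fun h => by
      obtain ⟨x, -, h⟩ := Finset.mem_image.1 h
      exact R.wt_ne_zero x h]
    exact Nat.add_le_add_left (Q.sum_m_le hl A) _

theorem cG_le' (S : Finset Φ) (hS : ¬ H.IsWt 0 ∨ ∀ b ∈ S, ¬ sh b) (A : Finset (Bool × Φ))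
    (hA : ∀ x : Bool × Φ, sh x.2 → x ∈ A ∨ ∀ b ∈ S, 0 ≤ R.pair (R.wt x) (true, b)) : H.cG S ≤ A.card := by
  classical
  refine (H.cG_le_sum S (A.image R.wt) fun μ h1 h2 b hb n hn => ?_).trans (Q.sum_m_le hl A)
  rcases Q.wts hl h1 with rfl | h3
  · rw [zero_add]
    exact Q.not_wt' hl (hS.resolve_left (not_not.2 h1) b hb) hn
  · obtain ⟨x, h4, rfl⟩ := Q.ext hl h3
    exact h3.not_isWt ((hA x h4).resolve_left (fun h => h2 (Finset.mem_image_of_mem _ h)) b hb) (by omega)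

theorem d_le (A : Finset (Bool × Φ)) (hA : ∀ x : Bool × Φ, sh x.2 → x ∈ A) : H.d ≤ H.m 0 + A.card := by
  classical
  refine (H.d_le_sum (insert 0 (A.image R.wt)) fun μ h1 => ?_).trans ?_
  · rcases Q.wts hl h1 with rfl | h3
    · exact Finset.mem_insert_self _ _
    · obtain ⟨x, h4, rfl⟩ := Q.ext hl h3
      exact Finset.mem_insert_of_mem (Finset.mem_image_of_mem _ (hA x h4))
  · rw [Finset.sum_insert fun h => by
      obtain ⟨x, -, h⟩ := Finset.mem_image.1 h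
      exact R.wt_ne_zero x h]
    exact Nat.add_le_add_left (Q.sum_m_le hl A) _

theorem lev {h : ι → ℤ} (h0 : ∀ i, 0 ≤ h i) (h1 : ∀ b, sh b → R.hv h b ≤ R.hv h σ) {μ : ι → ℤ} (hμ : H.IsWt μ) :
    0 ≤ H.lev h μ ∧ H.lev h μ ≤ 2 * R.hv h σ := by
  refine ⟨H.lev_nonneg h0 hμ, ?_⟩
  have h2 : ∀ b, 0 ≤ R.hv h b := fun b => Finset.sum_nonneg fun i _ => mul_nonneg (h0 i) (Int.natCast_nonneg _)
  rcases Q.wts hl hμ with rfl | h3
  · rw [HW.lev, H.dep_eq (c := R.vec (true, σ)) (by rw [Q.lz_eq hl, RC.wt, sub_self]), ← R.hv_eq]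
    have := h2 σ
    omega
  · obtain ⟨⟨s, b⟩, h4, rfl⟩ := Q.ext hl h3
    rw [HW.lev, H.dep_eq (c := R.vec (true, σ) - R.vec (s, b)) (by
      rw [Q.lz_eq hl, R.toWt_sub, RC.wt, RC.wt, sub_sub_cancel]), hd_sub, ← R.hv_eq]
    have := h1 b h4
    have := h2 b
    have := h2 σ
    cases s
    · rw [R.vec_false', hd_neg, ← R.hv_eq]; omega
    · rw [← R.hv_eq]; omega

theorem cubic {h : ι → ℤ} (h0 : ∀ i, 0 ≤ h i) (h1 : ∀ b, sh b → R.hv h b ≤ R.hv h σ) {t : ℤ} (ht : 2 * R.hv h σ < 3 * t)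
    {S : Finset Φ} (hS : ∀ b ∈ S, t ≤ R.hv h b) : (∀ a ∈ S, ∀ b ∈ S, ∀ c ∈ S, ∀ l m n, 0 < l → 0 < m → 0 < n →
      H.E (true, a) l * H.E (true, b) m * H.E (true, c) n = 0) ∧ ∀ b ∈ S, ∀ n, 3 ≤ n → H.E (true, b) n = 0 := by
  have h2 : ∀ μ, H.IsWt μ → 0 ≤ H.lev h μ ∧ H.lev h μ < 0 + 3 * t := fun μ hμ => by
    have := Q.lev hl h0 h1 hμ
    omega
  refine ⟨H.cubic_of_lev S h hS h2, fun b hb n hn => H.E_eq_zero_of_lev b h h2 ?_⟩
  have h3 : 0 ≤ R.hv h σ := Finset.sum_nonneg fun i _ => mul_nonneg (h0 i) (Int.natCast_nonneg _)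
  have := hS b hb
  nlinarith

end QM

end qm

section ct

variable {p : ℕ} {ι Φ k G : Type} [Fintype ι] [DecidableEq ι] [Fintype Φ] [DecidableEq Φ] [Field k] [Group G]

theorem comm_of_hv (D : RDat p ι Φ k G) {h : ι → ℤ} {t : ℤ} (ht : 0 < t) (h1 : ∀ a, D.R.hv h a < 2 * t) {b b' : Φ}
    (hb : t ≤ D.R.hv h b) (hb' : t ≤ D.R.hv h b') (s u : k) : Commute (D.z b s) (D.z b' u) := by
  have h2 := D.cm b b' s u
  rw [Set.eq_empty_of_forall_notMem (s := {g | ∃ a u, _ ∧ g = D.z a u}), Subgroup.closure_empty, Subgroup.mem_bot,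
    mul_inv_eq_one, mul_inv_eq_iff_eq_mul] at h2
  · exact h2
  rintro _ ⟨a, u, ⟨m, n, hm, hn, h3⟩, -⟩
  have h4 : D.R.hv h a = m * D.R.hv h b + n * D.R.hv h b' := by
    simp only [RC.hv, h3, Finset.mul_sum, ← Finset.sum_add_distrib, Pi.add_apply, Pi.smul_apply, smul_eq_mul]
    exact Finset.sum_congr rfl fun i _ => by push_cast; ring
  have := h1 a
  nlinarith

/-- the modules are large, with one exception; `e = 1` or `0` -/
def Dich (R : RC ι Φ) (p : ℕ) (k : Type) [Field k] (ok : (ι → ℕ) → Prop) (ω : ι → ℕ) (e : ℕ) : Prop :=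
  ∀ (L : Type) [AddCommGroup L] [Module k L] (H : HW R p k L), ok H.lam → 6 ≤ H.d ∧ (∀ b, H.E (true, b) 1 ≠ 0) ∧
    ∀ S : Finset Φ, S.Nonempty → R.Ab p S → R.Idl p S → 2 * S.card < H.cL S ∨ (H.lam = ω ∧ S.card + e ≤ H.cL S)

variable {D : RDat p ι Φ k G} {ok : (ι → ℕ) → Prop} {ω : ι → ℕ} {e : ℕ}

theorem Dich.fam (h : Dich D.R p k ok ω e) {σ : Equiv.Perm ι} (F : Fam D σ) (hok : ∀ j, ok (F.H j).lam) {S : Finset Φ}
    (hS : S.Nonempty) (hA : D.R.Ab p S) (hI : D.R.Idl p S) (hv : F.val S ≤ 4 * S.card) :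
    (∀ j, (F.H j).lam = ω ∧ F.dbl j = false) ∧ Fintype.card F.J * (S.card + e) ≤ 2 * S.card := by
  have h1 : ∀ j, (F.H j).lam = ω ∧ S.card + e ≤ (F.H j).cL S := fun j =>
    ((h _ (F.H j) (hok j)).2.2 S hS hA hI).resolve_left fun h1 => by
      have := one_le_val F S j
      omega
  refine ⟨fun j => ⟨(h1 j).1, ?_⟩, ?_⟩
  · by_contra h2
    have h3 := le_trans (Finset.single_le_sum (f := fun j => if F.dbl j then
      (F.H j).cL S * (2 * (F.H j).d - (F.H j).cL S) else 2 * (F.H j).cL S) (fun _ _ => Nat.zero_le _)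
      (Finset.mem_univ j)) hv
    rw [if_pos (by simpa using h2)] at h3
    have h4 := (h _ (F.H j) (hok j)).1
    have h5 := (F.H j).cL_lt_d S
    have h6 := (h1 j).2
    have h7 := hS.card_pos
    have h8 := Nat.mul_le_mul_left ((F.H j).cL S) (show 5 ≤ 2 * (F.H j).d - (F.H j).cL S by omega)
    omega
  · have h2 := (Finset.card_nsmul_le_sum Finset.univ (fun j => 2 * (F.H j).cL S) (2 * (S.card + e))
      fun j _ => Nat.mul_le_mul_left 2 (h1 j).2).trans ((two_cL_le_val F S).trans hv)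
    rw [Finset.card_univ, smul_eq_mul] at h2
    nlinarith

theorem Dich.ctf (h : Dich D.R p k ok ω e) (σ : Equiv.Perm ι) (Q : Fam D σ → Prop) : CTF D ok σ Q := by
  intro J _ _ L _ _ H rep hok S hA hI sl hsl _ h1
  exfalso
  obtain ⟨j⟩ := ‹Nonempty J›
  have h2 := le_trans (Finset.single_le_sum (f := fun j => (H j).d * ((H j).d - 1) + if S.Nonempty then 2 else 0)
    (fun _ _ => Nat.zero_le _) (Finset.mem_univ j)) h1
  obtain ⟨h3, -, h4⟩ := h _ (H j) (hok j)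
  obtain ⟨c, hc⟩ := Nat.exists_eq_add_of_le h3
  have h5 : S.card ≤ 5 + c := by
    by_cases hS : S.Nonempty
    · have := (H j).cL_lt_d S
      rcases h4 S hS hA hI with h5 | h5 <;> omega
    · rw [Finset.not_nonempty_iff_eq_empty.mp hS]; simp
  simp only [hc, show 6 + c - 1 = 5 + c by omega] at h2
  nlinarith [Nat.zero_le (if S.Nonempty then 2 else 0)]

theorem good_of {σ : Equiv.Perm ι} (F : Fam D σ) (hd : ∀ j, F.dbl j = false) {S : Finset Φ} (hS : S.Nonempty)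
    (hc : ∀ b ∈ S, ∀ b' ∈ S, ∀ s t, Commute (D.z b s) (D.z b' t))
    (h3 : ∀ j, ∀ a ∈ S, ∀ b ∈ S, ∀ c ∈ S, ∀ l m n, 0 < l → 0 < m → 0 < n →
      (F.H j).E (true, a) l * (F.H j).E (true, b) m * (F.H j).E (true, c) n = 0)
    (hv : ∑ j, 2 * (F.H j).cG S ≤ 4 * S.card) : F.Good 1 :=
  ⟨S, hS, fun b hb => hb, hc, fun j _ => h3 j, fun j hj => by rw [hd j] at hj; exact absurd hj (by simp), by
    simpa only [Fam.valG, hd, Bool.false_eq_true, if_false] using hv⟩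

theorem good_fix {σ : Equiv.Perm ι} (F : Fam D σ) (hd : ∀ j, F.dbl j = false) {S : Finset Φ} (hS : S.Nonempty)
    (hc : ∀ b ∈ S, ∀ b' ∈ S, ∀ s t, Commute (D.z b s) (D.z b' t))
    (h3 : ∀ j, ∀ a ∈ S, ∀ b ∈ S, ∀ c ∈ S, ∀ l m n, 0 < l → 0 < m → 0 < n →
      (F.H j).E (true, a) l * (F.H j).E (true, b) m * (F.H j).E (true, c) n = 0)
    {c : ℕ} (h4 : ∀ j, (F.H j).cG S ≤ c) (h5 : Fintype.card F.J * c ≤ 2 * S.card) : F.Good 1 := by
  refine good_of F hd hS hc h3 ((Finset.sum_le_card_nsmul _ _ (2 * c) fun j _ => Nat.mul_le_mul_left 2 (h4 j)).trans ?_)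
  rw [Finset.card_univ, smul_eq_mul]
  nlinarith

/-- the conclusion for the exceptional module -/
def Gd (D : RDat p ι Φ k G) (ω : ι → ℕ) (e : ℕ) : Prop :=
  ∀ (σ : Equiv.Perm ι) (F : Fam D σ), (∀ j, (F.H j).lam = ω ∧ F.dbl j = false) → ∀ S : Finset Φ, S.Nonempty →
    D.R.Ab p S → D.R.Idl p S → F.val S ≤ 4 * S.card → Fintype.card F.J * (S.card + e) ≤ 2 * S.card → F.Good 1

theorem comb_of (P : Tws D) (hG : ∀ γ : P.Gr, γ = 1) (hex : ∃ l : ι → ℕ, (∀ i, l i < p) ∧ l ≠ 0 ∧ ok l)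
    (h : Dich D.R p k ok ω e) (hg : Gd D ω e) : P.Comb ok where
  ex := hex
  ok_gr γ l hl := by rw [hG γ, map_one]; exact hl
  faith L _ _ H hH := (h L H hH).2.1
  ct F hok _ _ S hS hA hI hv := by
    obtain ⟨h1, h2⟩ := h.fam F hok hS hA hI hv
    left
    rw [show P.gΦ P.σ = 1 by rw [hG P.σ, map_one]]
    exact hg _ F h1 S hS hA hI hv h2
  bg γ h1 := (h1 (hG γ)).elim
  ctg γ h1 := (h1 (hG γ)).elim
  ctf _ := h.ctf _ _
  eight := fun ⟨γ, γ', h1⟩ => (h1 (by rw [hG γ]; exact Commute.one_left _)).elim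

end ct

section tb

variable {l N : ℕ} [NeZero N] {R : RC (Fin l) (Fin N)} {p : ℕ} {k L : Type} [Field k] [AddCommGroup L] [Module k L]
  {H : HW R p k L}

theorem ne_of_orb {ν : Fin l → ℤ} {W : List WE} (h : ∀ S I, Msk S I → Orb H S ν (cnt I W))
    (h1 : ∀ b : Fin N, 0 < cnt (2 ^ (b : ℕ)) W) (b : Fin N) : H.E (true, b) 1 ≠ 0 := by
  obtain ⟨A, h2, h3⟩ := h _ _ (msk_single b)
  obtain ⟨μ, hμ⟩ := Finset.card_pos.1 (h2 ▸ h1 b)
  obtain ⟨b', h4, h5⟩ := (h3 μ hμ).2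
  rw [← Finset.mem_singleton.1 h4]
  exact h5.ne

theorem d_of_orb {ν : Fin l → ℤ} {W : List WE} (h : ∀ S I, Msk S I → Orb H S ν (cnt I W)) :
    cnt (2 ^ N - 1) W < H.d := lt_of_le_of_lt (h _ _ (msk_univ N)).le1 (H.cL_lt_d _)

/-- the base mask consists of simple roots of nodes with nonzero coordinate -/
theorem hG_zi {G : ℕ} (h : ∀ a : Fin N, G.testBit a = true → ∃ j, H.lam j ≠ 0 ∧ a = R.zi j) (a : Fin N)
    (ha : G.testBit a = true) : ¬ (p : ℤ) ∣ R.pair H.lz (true, a) := by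
  obtain ⟨j, h1, rfl⟩ := h a ha
  rw [R.pair_zi, H.lz_apply, Int.natCast_dvd_natCast]
  exact Nat.not_dvd_of_pos_of_lt (Nat.pos_of_ne_zero h1) (H.lam_lt j)

theorem of_en {n c m : ℕ} (hn : 0 < n) (h : (n.beq 0 || (m * n).blt c) = true) : m * n < c := by
  rw [Bool.or_eq_true, Nat.beq_eq, Nat.blt_eq] at h
  omega

theorem of_en' {n c m I J : ℕ} (hn : 0 < n) (hJ : sub I J = true) (h : (n.beq 0 || !sub I J || (m * n).blt c) = true) :
    m * n < c := by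
  rw [hJ, Bool.not_true, Bool.or_false] at h
  exact of_en hn h

theorem Msk.sub {S : Finset (Fin N)} {I J : ℕ} (h : Msk S I) (h' : ∀ b ∈ S, J.testBit b = true) : sub I J = true := by
  refine Nat.beq_eq.mpr (Nat.eq_of_testBit_eq fun m => ?_)
  rw [Nat.testBit_and]
  cases h1 : I.testBit m
  · rfl
  · obtain ⟨h2, h3⟩ := (h m).1 h1
    exact h' _ h3

end tb

end Cfsg.Agent.TwoF.DC.TF
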