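import Cfsg.Agent.TwoF.DC.TFG.CG
import Cfsg.Agent.TwoF.DC.TFG.TabF2

/-!
# TwoF, defining characteristic, type F4: the combinatorial statements (helper25)
-/

set_option autoImplicit false
set_option linter.unusedSectionVars false
set_option linter.unusedVariables false

namespace Cfsg.Agent.TwoF.DC.TF

open Module TE

theorem TB.oZ {l N : ℕ} [NeZero N] {R : RC (Fin l) (Fin N)} {rl cols : List (List ℤ)} {prm : List (List ℕ)}
    (h : TB R rl cols prm) {p : ℕ} {ok : ℕ → Bool} (hok : ∀ r ≤ 2, ok r = true → ¬ p ∣ r + 1) {k L : Type} [Field k]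
    [AddCommGroup L] [Module k L] [CharP k p] {H : HW R p k L} {G M : ℕ} {μ : List ℤ} {W : List WE} (J : List (Fin l))
    (hJ : ∀ j ∈ J, H.lam j ≠ 0) (h1 : chkTop N rl ok G M = true) (h2 : chkT l cols prm μ (M <<< N) W = true)
    (h3 : μ.length = l ∧ (∀ i, tv l μ i = if i ∈ J then 1 else 0) ∧
      ∀ a : Fin N, G.testBit a = true → ∃ j ∈ J, a = R.zi j) : Ob H H.lz W := by
  refine h.oT hok rfl h1 h2 h3.1 (fun i => ?_) (hG_zi fun a ha => (h3.2.2 a ha).imp fun j hj => ⟨hJ j hj.1, hj.2⟩)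
  rw [h3.2.1, H.lz_apply]
  split_ifs with h4
  · have := hJ i h4
    omega
  · omega

theorem comm_of_three {p : ℕ} {ι Φ k G : Type} [Fintype ι] [DecidableEq ι] [Fintype Φ] [DecidableEq Φ] [Field k] [Group G]
    (D : RDat p ι Φ k G) {i : ι} (h1 : ∀ a, D.R.cf a i ≤ 2) {b b' : Φ} (hb : 1 ≤ D.R.cf b i) (hb' : 1 ≤ D.R.cf b' i)
    (h2 : ∀ a, D.R.cf a ≠ D.R.cf b + D.R.cf b') (s u : k) : Commute (D.z b s) (D.z b' u) := by
  have h3 := D.cm b b' s u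
  rw [Set.eq_empty_of_forall_notMem (s := {g | ∃ a u, _ ∧ g = D.z a u}), Subgroup.closure_empty, Subgroup.mem_bot,
    mul_inv_eq_one, mul_inv_eq_iff_eq_mul] at h3
  · exact h3
  rintro _ ⟨a, u, ⟨m, n, hm, hn, h3⟩, -⟩
  have h4 := h1 a
  rw [h3, Pi.add_apply, Pi.smul_apply, Pi.smul_apply, smul_eq_mul, smul_eq_mul] at h4
  have h5 := Nat.le_mul_of_pos_right m hb
  have h6 := Nat.le_mul_of_pos_right n hb'
  obtain ⟨rfl, rfl⟩ : m = 1 ∧ n = 1 := by omega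
  exact h2 a (by rw [h3, one_smul, one_smul])

/-- the short roots -/
def shF (b : Fin 24) : Prop := Nat.testBit 13464152 b = true

instance decShF : DecidablePred shF := fun b => inferInstanceAs (Decidable (Nat.testBit 13464152 b = true))

theorem qmF : QM rcF shF 3 ![1, 0, 0, 0] where
  wt := by decide +kernel
  hσ := by decide
  sh_s := by decide +kernel
  dom c h := by
    have e0 : ((fun i => ((![1, 0, 0, 0] : Fin 4 → ℕ) i : ℤ)) - rcF.toWt fun j => c j) 0 =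
      1 - (2 * c 0 + (-1 * c 1 + (0 * c 2 + (0 * c 3 + 0)))) := rfl
    have e1 : ((fun i => ((![1, 0, 0, 0] : Fin 4 → ℕ) i : ℤ)) - rcF.toWt fun j => c j) 1 =
      0 - (-1 * c 0 + (2 * c 1 + (-2 * c 2 + (0 * c 3 + 0)))) := rfl
    have e2 : ((fun i => ((![1, 0, 0, 0] : Fin 4 → ℕ) i : ℤ)) - rcF.toWt fun j => c j) 2 =
      0 - (0 * c 0 + (-1 * c 1 + (2 * c 2 + (-1 * c 3 + 0)))) := rfl
    have e3 : ((fun i => ((![1, 0, 0, 0] : Fin 4 → ℕ) i : ℤ)) - rcF.toWt fun j => c j) 3 =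
      0 - (0 * c 0 + (0 * c 1 + (-1 * c 2 + (2 * c 3 + 0)))) := rfl
    have h0 := h 0
    have h1 := h 1
    have h2 := h 2
    have h3 := h 3
    rw [e0] at h0
    rw [e1] at h1
    rw [e2] at h2
    rw [e3] at h3
    have h4 : c 0 = 0 ∧ c 1 = 0 ∧ c 2 = 0 ∧ c 3 = 0 ∨ c 0 = 2 ∧ c 1 = 3 ∧ c 2 = 2 ∧ c 3 = 1 := by omega
    refine h4.imp (fun h4 i => by fin_cases i <;> simp [h4]) fun h4 => funext fun i => ?_
    fin_cases i
    exacts [e0.trans (by simp [h4]), e1.trans (by simp [h4]), e2.trans (by simp [h4]), e3.trans (by simp [h4])]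

theorem pairF (x y z w : ℤ) (a : Fin 24) :
    rcF.pair ![x, y, z, w] (true, a) = rcF.co a 0 * x + rcF.co a 1 * y + rcF.co a 2 * z + rcF.co a 3 * w := by
  simp [RC.pair, RC.cov, Fin.sum_univ_four]

variable {p : ℕ} {k L : Type} [Field k] [AddCommGroup L] [Module k L] [CharP k p]

theorem lz4 (H : HW rcF p k L) {a b c d : ℕ} (h0 : H.lam 0 = a) (h1 : H.lam 1 = b) (h2 : H.lam 2 = c) (h3 : H.lam 3 = d) :
    H.lam = ![a, b, c, d] ∧ H.lz = ![(a : ℤ), b, c, d] ∧ ¬ (a = 0 ∧ b = 0 ∧ c = 0 ∧ d = 0) := by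
  subst h0 h1 h2 h3
  refine ⟨?_, ?_, fun h => H.lam_ne (funext fun i => ?_)⟩
  · funext i; fin_cases i <;> rfl
  · funext i; fin_cases i <;> rfl
  · fin_cases i
    exacts [h.1, h.2.1, h.2.2.1, h.2.2.2]

theorem hok0 (hp : 2 ≤ p) : ∀ r ≤ 2, ok0 r = true → ¬ p ∣ r + 1 := fun r _ h =>
  Nat.not_dvd_of_pos_of_lt (by omega) (by rw [ok0, Nat.beq_eq] at h; omega)

theorem hok1 (hp : 3 ≤ p) : ∀ r ≤ 2, ok1 r = true → ¬ p ∣ r + 1 := fun r _ h =>
  Nat.not_dvd_of_pos_of_lt (by omega) (by rw [ok1, Nat.ble_eq] at h; omega)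

theorem ob0 (hp : 2 ≤ p) {H : HW rcF p k L} (h : H.lam 0 ≠ 0) : Ob H H.lz f0 :=
  tbF.oZ (hok0 hp) [0] (by simpa using h) f0_top f0_ok (by decide +kernel)

theorem ob1 (hp : 2 ≤ p) {H : HW rcF p k L} (h : H.lam 1 ≠ 0) : Ob H H.lz f1 :=
  tbF.oZ (hok0 hp) [1] (by simpa using h) f1_top f1_ok (by decide +kernel)

theorem dichF (hp : 3 ≤ p) : Dich rcF p k (fun _ => True) ![1, 0, 0, 0] 1 := by
  intro L _ _ H _
  have hp' : 2 ≤ p := by omega
  have big : ∀ {ν W}, Ob H ν W → enum (fun I n => n.beq 0 || (2 * n).blt (cnt I W)) eF1 0 0 0 = true →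
      ∀ S : Finset (Fin 24), S.Nonempty → rcF.Ab p S → rcF.Idl p S → 2 * S.card < H.cL S := fun h1 h2 S hS hA hI => by
    obtain ⟨I, h3, h4⟩ := tbF.en (hok1 hp) eF1_ok h2 hS hA hI
    exact h4.trans_le (h1 S I h3).le1
  rw [← and_assoc]
  by_cases h1 : H.lam 1 = 0
  swap
  · exact ⟨(ob1 hp' h1).base (by decide +kernel), fun S hS hA hI => Or.inl (big (ob1 hp' h1) f1_en1 S hS hA hI)⟩
  by_cases h2 : H.lam 2 = 0
  swap
  · have h3 := tbF.oZ (hok1 hp) [2] (H := H) (by simpa using h2) f2_top f2_ok (by decide +kernel)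
    exact ⟨h3.base (by decide +kernel), fun S hS hA hI => Or.inl (big h3 f2_en1 S hS hA hI)⟩
  obtain ⟨hm, hl, hn⟩ := lz4 H rfl h1 h2 rfl
  have ha := H.lam_lt 0
  have hd := H.lam_lt 3
  by_cases h0 : H.lam 0 = 0
  · have h3 : H.lam 3 ≠ 0 := fun h => hn ⟨h0, rfl, rfl, h⟩
    have h4 := tbF.oZ (hok1 hp) [3] (H := H) (by simpa using h3) f3_top f3_ok (by decide +kernel)
    refine ⟨h4.base (by decide +kernel), fun S hS hA hI => Or.inl ?_⟩
    rw [h0] at hl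
    rw [hl] at h4
    have h5 := tbF.oS (ν' := ![1, 0, 0, (H.lam 3 : ℤ) - 1]) (hok1 hp) hl f3_top f3b_sec f3b_clo f3b_ok rfl (by decide)
      (by funext i; fin_cases i <;> rfl)
      (fun i => by
        fin_cases i
        exacts [⟨zero_le_one, le_rfl⟩, ⟨le_rfl, le_rfl⟩, ⟨le_rfl, le_rfl⟩, ⟨le_rfl, by show (0 : ℤ) ≤ _ - 1; omega⟩])
      (hl ▸ hG_zi fun a ha => ⟨3, h3, by revert a; decide +kernel⟩) fun x hx => by
        obtain ⟨e0, e3⟩ : rcF.co x 0 = 1 ∧ rcF.co x 3 = 0 := by revert x; decide +kernel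
        rw [pairF, e0, e3]
        simpa using nd_of_lt (p := p) one_ne_zero (by omega)
    obtain ⟨I, h6, h7⟩ := tbF.en (hok1 hp) eF1_ok f3_en1 hS hA hI
    refine h7.trans_le ((h4 S I h6).le2 (h5 S I h6) (fun i => ?_) (fun i => ?_) fun h => by simpa using congrFun h 0)
    · fin_cases i <;> exact Int.natCast_nonneg _
    · fin_cases i
      exacts [zero_le_one, le_rfl, le_rfl, by show (0 : ℤ) ≤ _ - 1; omega]
  refine ⟨(ob0 hp' h0).base (by decide +kernel), fun S hS hA hI => ?_⟩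
  by_cases h3 : H.lam 3 = 0
  swap
  · exact Or.inl (big (tbF.oZ (hok0 hp') [0, 3] (by simpa using ⟨h0, h3⟩) f03_top f03_ok (by decide +kernel))
      f03_en1 S hS hA hI)
  by_cases h4 : H.lam 0 = 1
  · obtain ⟨I, h5, h6⟩ := tbF.en (hok1 hp) eF1_ok f0_en1 hS hA hI
    have := (ob0 hp' h0 S I h5).le1
    exact Or.inr ⟨by rw [hm, h3, h4], by omega⟩
  rw [h3] at hl
  refine Or.inl (big (tbF.oS (ν' := ![(H.lam 0 : ℤ) - 2, 1, 0, 0]) (hok0 hp') hl f0_top f0b_sec f0b_clo f0b_ok rfl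
    (by decide) (by funext i; fin_cases i <;> rfl)
    (fun i => by
      fin_cases i
      exacts [⟨le_rfl, by show (0 : ℤ) ≤ _ - 2; omega⟩, ⟨zero_le_one, le_rfl⟩, ⟨le_rfl, le_rfl⟩, ⟨le_rfl, le_rfl⟩])
    (hl ▸ hG_zi fun a ha => ⟨0, h0, by revert a; decide +kernel⟩) fun x hx => ?_) f0b_en1 S hS hA hI)
  obtain ⟨e0, e1⟩ : rcF.co x 0 = 0 ∧ rcF.co x 1 = 1 := by revert x; decide +kernel
  rw [pairF, e0, e1]
  simpa using nd_of_lt (p := p) one_ne_zero (by omega)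

/-- the short nodes -/
def sF (i : Fin 4) : Bool := (i : ℕ).blt 2

theorem dichF2 [CharP k 2] : Dich rcF 2 k (fun l => ∀ i, sF i = false → l i = 0) ![1, 0, 0, 0] 1 := by
  intro L _ _ H hH
  rw [← and_assoc]
  by_cases h1 : H.lam 1 = 0
  swap
  · refine ⟨(ob1 le_rfl h1).base (by decide +kernel), fun S hS hA hI => Or.inl ?_⟩
    obtain ⟨I, h3, h4⟩ := tbF.en (hok0 le_rfl) eF0_ok f1_en0 hS hA hI
    exact h4.trans_le (ob1 le_rfl h1 S I h3).le1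
  obtain ⟨hm, -, hn⟩ := lz4 H rfl h1 (hH 2 rfl) (hH 3 rfl)
  have ha := H.lam_lt 0
  have h0 : H.lam 0 ≠ 0 := fun h => hn ⟨h, rfl, rfl, rfl⟩
  refine ⟨(ob0 le_rfl h0).base (by decide +kernel), fun S hS hA hI => Or.inr ⟨?_, ?_⟩⟩
  · rw [hm, show H.lam 0 = 1 by omega]
  · obtain ⟨I, h5, h6⟩ := tbF.en (hok0 le_rfl) eF0_ok f0_en0 hS hA hI
    have := (ob0 le_rfl h0 S I h5).le1
    omega

theorem mixed2 [CharP k 2] {H : HW rcF 2 k L} (h : H.lam 1 ≠ 0 ∨ H.lam 0 ≠ 0 ∧ (H.lam 2 ≠ 0 ∨ H.lam 3 ≠ 0))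
    {S : Finset (Fin 24)} (hS : S.Nonempty) (hA : rcF.Ab 2 S) (hI : rcF.Idl 2 S) : 2 * S.card + 3 ≤ H.cL S := by
  have big : ∀ {W}, Ob H H.lz W → enum (fun I n => n.beq 0 || (2 * n).blt (cnt I W - 2)) eF0 0 0 0 = true →
      2 * S.card + 3 ≤ H.cL S := fun h1 h2 => by
    obtain ⟨I, h3, h4⟩ := tbF.en (hok0 le_rfl) eF0_ok h2 hS hA hI
    have := (h1 S I h3).le1
    omega
  rcases h with h | ⟨h, h' | h'⟩
  · exact big (tbF.oZ (hok0 le_rfl) [1] (by simpa using h) f1_top f1m_ok (by decide +kernel)) f1m_en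
  · exact big (tbF.oZ (hok0 le_rfl) [0, 2] (by simpa using ⟨h, h'⟩) f02_top f02m_ok (by decide +kernel)) f02m_en
  · exact big (tbF.oZ (hok0 le_rfl) [0, 3] (by simpa using ⟨h, h'⟩) f03_top f03m_ok (by decide +kernel)) f03m_en

theorem mixF2 [CharP k 2] : Mix rcF 2 k sF 3 := by
  intro L L' _ _ _ _ H H' ⟨i, h1, h2⟩ ⟨i', h3, h4⟩ S hS hA hI
  have e0 : ∀ i, sF i = true → i = 1 ∨ i = 0 := by decide
  have e1 : ∀ i, sF i = false → i = 2 ∨ i = 3 := by decide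
  have h5 : H.lam 1 ≠ 0 ∨ H.lam 0 ≠ 0 := by rcases e0 i h1 with rfl | rfl <;> simp [h2]
  have h6 : H'.lam 2 ≠ 0 ∨ H'.lam 3 ≠ 0 := by rcases e1 i' h3 with rfl | rfl <;> simp [h4]
  refine ⟨?_, fun ⟨i, h7, h8⟩ => mixed2 (h5.imp_right fun h => ⟨h, by rcases e1 i h7 with rfl | rfl <;> simp [h8]⟩)
    hS hA hI⟩
  rcases h5 with h5 | h5
  · exact le_add_right (mixed2 (Or.inl h5) hS hA hI)
  by_cases h7 : H'.lam 1 ≠ 0 ∨ H'.lam 0 ≠ 0
  · exact le_add_left (mixed2 (h7.imp_right fun h => ⟨h, h6⟩) hS hA hI)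
  push Not at h7
  have big : ∀ {ν W}, Ob H' ν W → enum (fun I n => n.beq 0 || (2 * n).blt (cnt I f0 + cnt I W - 2)) eF0 0 0 0 = true →
      2 * S.card + 3 ≤ H.cL S + H'.cL S := fun h1 h2 => by
    obtain ⟨I, h3, h4⟩ := tbF.en (hok0 le_rfl) eF0_ok h2 hS hA hI
    have := (h1 S I h3).le1
    have := (ob0 le_rfl h5 S I h3).le1
    omega
  by_cases h8 : H'.lam 3 = 0
  · have h9 := H'.lam_lt 2
    exact big (tbF.oT (hok0 le_rfl) (lz4 H' h7.2 h7.1 (show H'.lam 2 = 1 by omega) h8).2.1 f2t_top f2tm_ok rfl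
      (by decide) (by decide +kernel)) f2tm_en
  · exact big (tbF.oZ (hok0 le_rfl) [3] (by simpa using h8) f3t_top f3t_ok (by decide +kernel)) f3tm_en

variable {G : Type} [Group G] {D : RDat p (Fin 4) (Fin 24) k G}

theorem gdF1 (hp : 3 ≤ p) (hR : D.R = rcF) : Gd D ![1, 0, 0, 0] 1 := by
  intro σ F hF S hS hA hI hv _
  have Q : QM D.R shF 3 ![1, 0, 0, 0] := hR ▸ qmF
  obtain ⟨h, t, h0, h1, h2, h3, h4, h5⟩ : ∃ (h : Fin 4 → ℤ) (t : ℤ), (∀ i, 0 ≤ h i) ∧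
      (∀ b, shF b → rcF.hv h b ≤ rcF.hv h 3) ∧ 2 * rcF.hv h 3 < 3 * t ∧ 0 < t ∧ (∀ a, rcF.hv h a < 2 * t) ∧
      ∀ b ∈ S, t ≤ rcF.hv h b := by
    obtain ⟨I, h1, h2⟩ := tbF.ideal' (hok1 hp) eF1_ok f_max (hR ▸ hA) (hR ▸ hI)
    rcases Bool.or_eq_true_iff.1 h2 with h2 | h2
    · refine ⟨![0, 0, 1, 0], 2, by decide, by decide +kernel, by decide +kernel, by decide, by decide +kernel,
        fun b hb => ?_⟩
      have h3 := h1.mem h2 hb
      clear hb; revert b; decide +kernel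
    · refine ⟨![1, 0, 1, 0], 3, by decide, by decide +kernel, by decide +kernel, by decide, by decide +kernel,
        fun b hb => ?_⟩
      have h3 := h1.mem h2 hb
      clear hb; revert b; decide +kernel
  rw [← hR] at h1 h2 h4 h5
  refine good_of F (fun j => (hF j).2) hS (fun b hb b' hb' => comm_of_hv D h3 h4 (h5 b hb) (h5 b' hb'))
    (fun j => (Q.cubic (hF j).1 h0 h1 h2 h5).1) (le_trans (Finset.sum_le_sum fun j _ => ?_) ((two_cL_le_val F S).trans hv))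
  have := (F.H j).fd
  exact Nat.mul_le_mul_left 2 (Nat.sub_le_sub_left (Submodule.finrank_mono
    ((F.H j).kerL_le_kerG_of_three hp (Q.cubic (hF j).1 h0 h1 h2 h5).2)) _)

theorem gdF2 (hR : D.R = rcF) (hc : ∀ b b', shF b → shF b' → rcF.cf 0 = rcF.cf b + rcF.cf b' → ∀ s t,
    Commute (D.z b s) (D.z b' t)) : Gd D ![1, 0, 0, 0] 1 := by
  intro σ F hF S hS _ _ _ hJ
  have Q : QM D.R shF 3 ![1, 0, 0, 0] := hR ▸ qmF
  have h1 : Fintype.card F.J ≤ 1 := by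
    by_contra h
    have := Nat.mul_le_mul_right (S.card + 1) (show 2 ≤ Fintype.card F.J by omega)
    omega
  refine good_fix F (fun j => (hF j).2) (S := {0, 1, 2, 3, 4, 5, 6, 7, 9, 12, 14}) (Finset.insert_nonempty _ _)
    (fun b hb b' hb' => ?_) (fun j => ?_) (c := 20) (fun j => ?_)
    (by rw [show ({0, 1, 2, 3, 4, 5, 6, 7, 9, 12, 14} : Finset (Fin 24)).card = 11 from rfl]; omega)
  · obtain ⟨h2, h3, h4⟩ | ⟨h2, h3, h4⟩ : (shF b ∧ shF b' ∧ rcF.cf 0 = rcF.cf b + rcF.cf b') ∨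
        1 ≤ rcF.cf b 3 ∧ 1 ≤ rcF.cf b' 3 ∧ ∀ a, rcF.cf a ≠ rcF.cf b + rcF.cf b' := by
      revert b b'; decide +kernel
    · exact hc b b' h2 h3 h4
    · rw [← hR] at h2 h3 h4
      exact comm_of_three D (by rw [hR]; decide +kernel) h2 h3 h4
  · refine (Q.cubic (hF j).1 (h := ![0, 0, 0, 1]) (t := 1) (by decide) ?_ ?_ ?_).1 <;> rw [hR] <;> decide +kernel
  · refine (Q.cG_le (hF j).1 _ (Finset.univ.filter fun x => shF x.2 ∧ rcF.vec x 3 ≤ 0) ?_).trans (add_le_add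
      (Q.m0_le (hF j).1 (i := 0) (i' := 1) ?_) (show _ ≤ 18 by decide +kernel)) <;> rw [hR] <;> decide +kernel

end Cfsg.Agent.TwoF.DC.TF
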