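import Cfsg.Agent.TwoF.DC.TE.Chk

/-!
# TwoF, defining characteristic, types G2 and F4 (2): a certificate checker (helper25)

Roots are coded by numbers `c < 2 N`, sets of roots by bit masks.  `Act H ν x` : the root operator `x` does not kill the
weight space `ν`.  Tables of Weyl orbits (`chkT`), base facts (`chkTop`, `chkSec`, `chkC`), enumeration of all abelian
ideals in characteristic `p` (`chkE`).
-/

set_option autoImplicit false
set_option linter.unusedSectionVars false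
set_option linter.unusedVariables false

namespace Cfsg.Agent.TwoF.DC.TF

open Module TE

/-! ### weight spaces which are moved -/

section act

variable {ι Φ : Type} [Fintype ι] [DecidableEq ι] [Fintype Φ] [DecidableEq Φ] {R : RC ι Φ} {p : ℕ} {k L : Type}
  [Field k] [AddCommGroup L] [Module k L] (H : HW R p k L)

/-- the root operator does not kill the weight space -/
def Act (ν : ι → ℤ) (x : Bool × Φ) : Prop := ∃ v ∈ H.w ν, H.E x 1 v ≠ 0

variable {H}

theorem Act.sw {ν : ι → ℤ} {x : Bool × Φ} (h : Act H ν x) (i : ι) : Act H (R.sw i ν) (R.sr i x) := by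
  obtain ⟨v, hv, h0⟩ := h
  exact ⟨H.nnl [i] v, H.nnl_w [i] hv, fun h1 => h0 ((H.E_nnl_eq_zero [i] x 1 v).1 h1)⟩

theorem Act.ne {ν : ι → ℤ} {x : Bool × Φ} (h : Act H ν x) : H.E x 1 ≠ 0 := by
  obtain ⟨v, -, h0⟩ := h
  exact fun h1 => h0 (by rw [h1]; rfl)

/-- at least `n` weights in the orbit of `ν₀` are moved by `S` -/
def Orb (H : HW R p k L) (S : Finset Φ) (ν₀ : ι → ℤ) (n : ℕ) : Prop :=
  ∃ A : Finset (ι → ℤ), A.card = n ∧ ∀ ν ∈ A, (∃ w, ν = R.swl w ν₀) ∧ ∃ b ∈ S, Act H ν (true, b)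

theorem orb_disj {S : Finset Φ} {ν ν' : ι → ℤ} (hν : Dom ν) (hν' : Dom ν') (hne : ν ≠ ν') {A A' : Finset (ι → ℤ)}
    (h : ∀ μ ∈ A, ∃ w, μ = R.swl w ν) (h' : ∀ μ ∈ A', ∃ w, μ = R.swl w ν') : Disjoint A A' := by
  refine Finset.disjoint_left.2 fun μ h1 h2 => hne ?_
  obtain ⟨w, hw⟩ := h μ h1
  obtain ⟨w', hw'⟩ := h' μ h2
  have h3 : R.swl (w'.reverse ++ w) ν = ν' := by rw [R.swl_append, ← hw, hw', R.swl_rev_swl]
  rw [← h3, R.swl_eq_of_dom hν _ (h3 ▸ hν')]

theorem Orb.le1 {S : Finset Φ} {ν : ι → ℤ} {n : ℕ} (h : Orb H S ν n) : n ≤ H.cL S := by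
  obtain ⟨A, rfl, h⟩ := h
  exact H.card_le_cL S A fun μ hμ => (h μ hμ).2

theorem Orb.le2 {S : Finset Φ} {ν ν' : ι → ℤ} {n n' : ℕ} (h : Orb H S ν n) (h' : Orb H S ν' n') (hν : Dom ν)
    (hν' : Dom ν') (hne : ν ≠ ν') : n + n' ≤ H.cL S := by
  classical
  obtain ⟨A, rfl, h⟩ := h
  obtain ⟨A', rfl, h'⟩ := h'
  rw [← Finset.card_union_of_disjoint (orb_disj (S := S) hν hν' hne (fun μ hμ => (h μ hμ).1) fun μ hμ => (h' μ hμ).1)]
  exact H.card_le_cL S _ fun μ hμ => (Finset.mem_union.1 hμ).elim (fun h1 => (h μ h1).2) fun h1 => (h' μ h1).2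

theorem Orb.le3 {S : Finset Φ} {ν ν' ν'' : ι → ℤ} {n n' n'' : ℕ} (h : Orb H S ν n) (h' : Orb H S ν' n')
    (h'' : Orb H S ν'' n'') (hν : Dom ν) (hν' : Dom ν') (hν'' : Dom ν'') (h1 : ν ≠ ν') (h2 : ν ≠ ν'') (h3 : ν' ≠ ν'') :
    n + n' + n'' ≤ H.cL S := by
  classical
  obtain ⟨A, rfl, h⟩ := h
  obtain ⟨A', rfl, h'⟩ := h'
  obtain ⟨A'', rfl, h''⟩ := h''
  rw [← Finset.card_union_of_disjoint (orb_disj (S := S) hν hν' h1 (fun μ hμ => (h μ hμ).1) fun μ hμ => (h' μ hμ).1),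
    ← Finset.card_union_of_disjoint (Finset.disjoint_union_left.2
      ⟨orb_disj (S := S) hν hν'' h2 (fun μ hμ => (h μ hμ).1) fun μ hμ => (h'' μ hμ).1,
        orb_disj (S := S) hν' hν'' h3 (fun μ hμ => (h' μ hμ).1) fun μ hμ => (h'' μ hμ).1⟩)]
  exact H.card_le_cL S _ fun μ hμ => (Finset.mem_union.1 hμ).elim (fun h0 => (Finset.mem_union.1 h0).elim
    (fun h1 => (h μ h1).2) fun h1 => (h' μ h1).2) fun h1 => (h'' μ h1).2

variable [CharP k p]

theorem br_top {v : L} (hv : v ∈ H.w H.lz) {a β a' : Φ} (h1 : R.cf a = R.cf β + R.cf a')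
    (h2 : R.NZ p (true, β) (false, a)) (h3 : H.E (false, a') 1 v ≠ 0) : H.E (true, β) 1 (H.E (false, a) 1 v) ≠ 0 := by
  intro h
  obtain ⟨N, hN, hN'⟩ := H.br (true, β) (false, a) (false, a') (funext fun i => by simp [RC.vec, h1])
  have h4 := congrArg (fun f : Module.End k L => f v) hN
  simp only [LinearMap.sub_apply, Module.End.mul_apply, h, H.E_top hv β Nat.one_pos, map_zero, sub_zero,
    LinearMap.smul_apply] at h4
  exact h3 ((smul_eq_zero.mp h4.symm).resolve_left (hN' h2))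

theorem ef_top {v : L} (hv : v ∈ H.w H.lz) (h0 : v ≠ 0) {a : Φ} (h : ¬ (p : ℤ) ∣ R.pair H.lz (true, a)) :
    H.E (true, a) 1 (H.E (false, a) 1 v) ≠ 0 := by
  intro h1
  obtain ⟨ε, hε⟩ := H.ef a
  have h2 := hε _ v hv
  rw [h1, H.E_top hv a Nat.one_pos, map_zero, sub_zero] at h2
  rcases smul_eq_zero.1 h2.symm with h3 | h3
  · exact h ((CharP.intCast_eq_zero_iff k p _).1 ((mul_eq_zero.1 h3).resolve_left ε.ne_zero))
  · exact h0 h3

/-- the negative roots which do not kill the highest weight vector -/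
theorem top_ne {v : L} (hv : v ∈ H.w H.lz) (h0 : v ≠ 0) {M : Φ → Prop}
    (h : ∀ a, M a → ¬ (p : ℤ) ∣ R.pair H.lz (true, a) ∨
      ∃ β a', R.cf a = R.cf β + R.cf a' ∧ R.NZ p (true, β) (false, a) ∧ M a') (a : Φ) (ha : M a) :
    H.E (false, a) 1 v ≠ 0 := by
  induction hn : ∑ j, R.cf a j using Nat.strong_induction_on generalizing a with
  | _ n ih =>
    intro h1
    rcases h a ha with h2 | ⟨β, a', h2, h3, h4⟩
    · exact ef_top hv h0 h2 (by rw [h1, map_zero])
    · refine br_top hv h2 h3 (ih _ ?_ a' h4 rfl) (by rw [h1, map_zero])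
      rw [← hn, h2]
      simp only [Pi.add_apply, Finset.sum_add_distrib]
      obtain ⟨j, hj⟩ := Function.ne_iff.1 (R.vec_ne_zero (true, β))
      rw [R.vec_true] at hj
      have : R.cf β j ≤ ∑ j, R.cf β j := Finset.single_le_sum (f := R.cf β) (fun _ _ => Nat.zero_le _) (Finset.mem_univ j)
      have h5 : R.cf β j ≠ 0 := fun h => hj (by rw [h]; rfl)
      omega

theorem sub_wt (β : Φ) : H.lz - R.wt (true, β) = H.lz + R.wt (false, β) := by rw [R.wt_false, sub_eq_add_neg]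

/-- the end of a string -/
theorem act_end {v : L} (hv : v ∈ H.w H.lz) {β δ : Φ} (h1 : H.E (false, β) 1 v ≠ 0) {j : ι} (hj : R.cf β j < R.cf δ j)
    (h2 : ¬ (p : ℤ) ∣ R.pair (H.lz - R.wt (true, β)) (true, δ)) : Act H (H.lz - R.wt (true, β)) (false, δ) := by
  have h3 : H.E (false, β) 1 v ∈ H.w (H.lz - R.wt (true, β)) := by rw [sub_wt]; exact H.E1_w _ hv
  refine ⟨_, h3, fun h4 => h1 (H.inj_of_ef (x := (false, δ)) (by rwa [R.pair_false, dvd_neg]) h3 ?_ h4)⟩
  refine H.eq_zero_of_not_isWt ?_ (H.E1_w _ h3)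
  have h5 := H.not_isWt_of_dep (H.isWt_of_mem h3 h1) (n := 1) (x := (true, δ)) (j := j) (by
    rw [H.dep_eq (μ := H.lz - R.wt (true, β)) (c := R.vec (true, β)) rfl, R.vec_true, R.vec_true]; omega)
  rwa [one_smul] at h5

end act

/-! ### bit masks -/

/-- the image of a mask -/
def img : List ℕ → ℕ → ℕ
  | [], _ => 0
  | a :: π, M => (bif (M % 2).beq 0 then 0 else 2 ^ a) ||| img π (M / 2)

theorem img_realised : True := by have := @img.eq_def; trivial

theorem img_bit {π : List ℕ} {M a : ℕ} (h : (img π M).testBit a = true) : ∃ c, M.testBit c = true ∧ π[c]? = some a := by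
  induction π generalizing M with
  | nil => simp [img] at h
  | cons b π ih =>
    rw [img, Nat.testBit_or, Bool.or_eq_true] at h
    rcases h with h | h
    · cases h1 : (M % 2).beq 0 with
      | true => rw [h1] at h; simp at h
      | false =>
        rw [h1, cond_false, Nat.testBit_two_pow, decide_eq_true_eq] at h
        have h2 := Nat.ne_of_beq_eq_false h1
        exact ⟨0, by rw [Nat.testBit_zero, decide_eq_true_eq]; omega, by simp [h]⟩
    · obtain ⟨c, h1, h2⟩ := ih h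
      exact ⟨c + 1, by rwa [Nat.testBit_succ], by simpa using h2⟩

/-- inclusion of masks -/
def sub (M M' : ℕ) : Bool := (M &&& M').beq M

theorem sub_bit {M M' c : ℕ} (h : sub M M' = true) (hc : M.testBit c = true) : M'.testBit c = true := by
  rw [← Nat.beq_eq.mp h, Nat.testBit_and, Bool.and_eq_true] at hc
  exact hc.2

theorem lt_of_bit {M n c : ℕ} (h : M < 2 ^ n) (hc : M.testBit c = true) : c < n := by
  by_contra h1
  rw [Nat.testBit_lt_two_pow (lt_of_lt_of_le h (Nat.pow_le_pow_right (by omega) (by omega)))] at hc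
  exact absurd hc (by simp)

/-- the root with code `c` -/
def rc (N : ℕ) [NeZero N] (c : ℕ) : Bool × Fin N := (decide (c < N), Fin.ofNat N c)

theorem rc_pos {N : ℕ} [NeZero N] (b : Fin N) : rc N b = (true, b) := by simp [rc, b.2]

theorem rc_neg {N : ℕ} [NeZero N] (b : Fin N) : rc N (N + b) = (false, b) := by
  simp only [rc, Prod.mk.injEq, decide_eq_false_iff_not]
  exact ⟨by omega, Fin.ext (by simp [Nat.mod_eq_of_lt b.2])⟩

theorem exists_rc {N : ℕ} [NeZero N] (x : Bool × Fin N) : ∃ c < 2 * N, rc N c = x := by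
  obtain ⟨s, b⟩ := x
  have := b.2
  cases s
  · exact ⟨N + b, by omega, rc_neg b⟩
  · exact ⟨b, by omega, rc_pos b⟩

/-! ### the tables of a root system -/

/-- `v + w` -/
def ad (v w : List ℤ) : List ℤ := lin m1 v w

/-- the entry of the root table -/
def rg (rl : List (List ℤ)) (c : ℕ) : List ℤ := rl.getD c []

/-- a root -/
def rt (rl : List (List ℤ)) (v : List ℤ) : Bool := rl.any (· == v)

/-- the structure constant is `± (r + 1)` with `ok r` -/
def nzb (rl : List (List ℤ)) (ok : ℕ → Bool) (x y : List ℤ) : Bool :=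
  rt rl (ad x y) && (bif rt rl (lin p1 y x) then (bif rt rl (lin p2 y x) then (!rt rl (lin p3 y x) && ok 2) else ok 1)
    else ok 0)

/-- the tables: roots, simple roots as weights, simple reflections -/
structure TB {l N : ℕ} [NeZero N] (R : RC (Fin l) (Fin N)) (rl cols : List (List ℤ)) (prm : List (List ℕ)) : Prop where
  len : rl.length = 2 * N
  hrl : ∀ c < 2 * N, (rg rl c).length = l ∧ tv l (rg rl c) = R.vec (rc N c)
  hcol : ∀ i : Fin l, (rg cols i).length = l ∧ tv l (rg cols i) = R.wt (true, R.zi i)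
  hprm : ∀ i : Fin l, (prm.getD i []).length = 2 * N ∧ ∀ c < 2 * N, rc N ((prm.getD i []).getD c 0) = R.sr i (rc N c)

theorem length_lin (c : ℤ) {v w : List ℤ} (h : v.length = w.length) : (lin c v w).length = v.length := by
  induction v generalizing w with
  | nil => cases w <;> rfl
  | cons a v ih =>
    cases w with
    | nil => simp at h
    | cons b w => simp only [lin, List.length_cons, ih (by simpa using h)]

/-- the check of a weight table -/
def chkT (l : ℕ) (cols : List (List ℤ)) (prm : List (List ℕ)) (μ : List ℤ) (M : ℕ) : List WE → Bool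
  | [] => true
  | e :: W => (match W[e.2.1]? with
      | none => e.2.2.1 == μ && sub e.2.2.2 M
      | some q => e.1.blt l && e.2.2.1 == lin (gz q.2.2.1 e.1) q.2.2.1 (rg cols e.1) &&
          sub e.2.2.2 (img (prm.getD e.1 []) q.2.2.2)) &&
      !(W.any fun e' => e'.2.2.1 == e.2.2.1) && chkT l cols prm μ M W

theorem chkT_realised : True := by have := @chkT.eq_def; trivial

/-- closure under the stabiliser -/
def chkC (l : ℕ) (prm : List (List ℕ)) (μ : List ℤ) (M' : ℕ) : List (ℕ × ℕ) → ℕ → Bool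
  | [], M => sub M' M
  | e :: r, M => e.1.blt l && gz μ e.1 == p0 && sub e.2 (M ||| img (prm.getD e.1 []) M) && chkC l prm μ M' r e.2

theorem chkC_realised : True := by have := @chkC.eq_def; trivial

/-- the negative roots which move the highest weight vector -/
def chkTop (N : ℕ) (rl : List (List ℤ)) (ok : ℕ → Bool) (G M : ℕ) : Bool :=
  M.blt (2 ^ N) && (List.range N).all fun a => !M.testBit a || G.testBit a ||
    (List.range N).any fun β => (List.range N).any fun a' => M.testBit a' && rg rl a == ad (rg rl β) (rg rl a') &&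
      nzb rl ok (rg rl β) (rg rl (N + a))

/-- the roots which move the weight space `λ - β` -/
def chkSec (l N : ℕ) (rl : List (List ℤ)) (ok : ℕ → Bool) (G M β G' M' : ℕ) : Bool :=
  M'.blt (2 ^ (2 * N)) && β.blt N && M.testBit β &&
    ((List.range N).all fun c => !M'.testBit c || (c.beq β && G.testBit β) ||
      (List.range N).any fun z => M.testBit z && rg rl β == ad (rg rl c) (rg rl z) &&
        nzb rl ok (rg rl c) (rg rl (N + β))) &&
    (List.range N).all fun c => !M'.testBit (N + c) || (G'.testBit c &&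
      (List.range l).any fun j => isNeg (gz (rg rl β) j - gz (rg rl c) j))

/-- the masks of the enumeration -/
def chkE (N : ℕ) (rl : List (List ℤ)) (ok : ℕ → Bool) (F : List RE) : Bool :=
  F.length.beq N && (List.range N).all fun m => match F[m]? with
    | none => true
    | some e => e.2.2.1.blt (2 ^ m) && e.2.2.2.blt (2 ^ N) &&
        ((List.range N).all fun a => !e.2.2.1.testBit a || (List.range N).any fun β =>
          rg rl a == ad (rg rl β) (rg rl m) && nzb rl ok (rg rl β) (rg rl m)) &&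
        (List.range N).all fun a => !e.2.2.2.testBit a || nzb rl ok (rg rl a) (rg rl m)

/-- `I` is the mask of `S` -/
def Msk {N : ℕ} (S : Finset (Fin N)) (I : ℕ) : Prop := ∀ m, I.testBit m = true ↔ ∃ h : m < N, (⟨m, h⟩ : Fin N) ∈ S

theorem msk_single {N : ℕ} (b : Fin N) : Msk {b} (2 ^ (b : ℕ)) := fun m => by
  rw [Nat.testBit_two_pow, decide_eq_true_eq]
  exact ⟨fun h => ⟨h ▸ b.2, Finset.mem_singleton.2 (Fin.ext h.symm)⟩,
    fun ⟨h, h1⟩ => (congrArg Fin.val (Finset.mem_singleton.1 h1)).symm⟩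

theorem msk_univ (N : ℕ) : Msk (Finset.univ : Finset (Fin N)) (2 ^ N - 1) := fun m => by
  rw [Nat.testBit_two_pow_sub_one, decide_eq_true_eq]
  exact ⟨fun h => ⟨h, Finset.mem_univ _⟩, fun ⟨h, _⟩ => h⟩

theorem Msk.mem {N : ℕ} {S : Finset (Fin N)} {I J : ℕ} (h : Msk S I) (h' : sub I J = true) {b : Fin N} (hb : b ∈ S) :
    J.testBit b = true := sub_bit h' ((h b).2 ⟨b.2, hb⟩)

namespace TB

variable {l N : ℕ} [NeZero N] {R : RC (Fin l) (Fin N)} {rl cols : List (List ℤ)} {prm : List (List ℕ)}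
  (h : TB R rl cols prm)
include h

theorem rt_iff {v : List ℤ} (hv : v.length = l) : rt rl v = true ↔ R.IsRt (tv l v) := by
  rw [rt, List.any_eq_true]
  constructor
  · rintro ⟨e, he, h1⟩
    obtain ⟨c, hc, rfl⟩ := List.getElem_of_mem he
    refine ⟨rc N c, ?_⟩
    rw [← (h.hrl c (h.len ▸ hc)).2, ← eq_of_beq h1, rg, List.getD_eq_getElem _ _ hc]
  · rintro ⟨x, hx⟩
    obtain ⟨c, hc, rfl⟩ := exists_rc x
    refine ⟨rg rl c, ?_, ?_⟩
    · rw [rg, List.getD_eq_getElem _ _ (h.len ▸ hc)]; exact List.getElem_mem _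
    · rw [tv_inj (h.hrl c hc).1 hv ((h.hrl c hc).2.trans hx)]; exact beq_self_eq_true _

theorem tv_ad {c c' : ℕ} (hc : c < 2 * N) (hc' : c' < 2 * N) :
    tv l (ad (rg rl c) (rg rl c')) = R.vec (rc N c) + R.vec (rc N c') := by
  rw [ad, tv_lin _ _ _ _ ((h.hrl c hc).1.trans (h.hrl c' hc').1.symm), (h.hrl c hc).2, (h.hrl c' hc').2]
  show _ - (-1 : ℤ) • _ = _
  rw [neg_smul, one_smul, sub_neg_eq_add]

theorem rt_lin {c c' : ℕ} (hc : c < 2 * N) (hc' : c' < 2 * N) (n : ℤ) :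
    rt rl (lin n (rg rl c') (rg rl c)) = true ↔ R.IsRt (R.vec (rc N c') - n • R.vec (rc N c)) := by
  have h1 := (h.hrl c' hc').1.trans (h.hrl c hc).1.symm
  rw [h.rt_iff ((length_lin n h1).trans (h.hrl c' hc').1), tv_lin _ _ _ _ h1, (h.hrl c hc).2, (h.hrl c' hc').2]

theorem nz {p : ℕ} {ok : ℕ → Bool} (hok : ∀ r, ok r = true → ¬ p ∣ r + 1) {c c' : ℕ} (hc : c < 2 * N) (hc' : c' < 2 * N)
    (h1 : nzb rl ok (rg rl c) (rg rl c') = true) : R.NZ p (rc N c) (rc N c') := by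
  rw [nzb, Bool.and_eq_true] at h1
  obtain ⟨h1, h2⟩ := h1
  have h0 : R.IsRt (R.vec (rc N c') - ((0 : ℕ) : ℤ) • R.vec (rc N c)) := by
    rw [Nat.cast_zero, zero_smul, sub_zero]; exact ⟨_, rfl⟩
  have e1 := h.rt_lin hc hc' p1
  have e2 := h.rt_lin hc hc' p2
  have e3 := h.rt_lin hc hc' p3
  refine ⟨?_, ?_⟩
  · rw [← h.tv_ad hc hc']
    exact (h.rt_iff ((length_lin _ ((h.hrl c hc).1.trans (h.hrl c' hc').1.symm)).trans (h.hrl c hc).1)).1 h1
  cases h3 : rt rl (lin p1 (rg rl c') (rg rl c)) with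
  | false =>
    rw [h3, cond_false] at h2
    exact ⟨0, fun j hj => by obtain rfl := Nat.le_zero.1 hj; exact h0, fun h4 => by
      rw [e1.2 h4] at h3; exact absurd h3 (by simp), hok 0 h2⟩
  | true =>
    rw [h3, cond_true] at h2
    cases h4 : rt rl (lin p2 (rg rl c') (rg rl c)) with
    | false =>
      rw [h4, cond_false] at h2
      refine ⟨1, fun j hj => ?_, fun h5 => by rw [e2.2 h5] at h4; exact absurd h4 (by simp), hok 1 h2⟩
      interval_cases j
      · exact h0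
      · exact e1.1 h3
    | true =>
      rw [h4, cond_true, Bool.and_eq_true, Bool.not_eq_true'] at h2
      refine ⟨2, fun j hj => ?_, fun h5 => by rw [e3.2 h5] at h2; exact absurd h2.1 (by simp), hok 2 h2.2⟩
      interval_cases j
      · exact h0
      · exact e1.1 h3
      · exact e2.1 h4

theorem cf_eq {a β c : Fin N} (h1 : (rg rl a == ad (rg rl β) (rg rl c)) = true) : R.cf a = R.cf β + R.cf c := by
  have := a.2
  have := β.2
  have := c.2
  refine R.cf_of_vec ?_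
  rw [← rc_pos a, ← rc_pos β, ← rc_pos c, ← h.tv_ad (by omega) (by omega), ← eq_of_beq h1, (h.hrl a (by omega)).2]

theorem prm_bit (i : Fin l) {M a : ℕ} (h1 : (img (prm.getD i []) M).testBit a = true) :
    ∃ c, M.testBit c = true ∧ rc N a = R.sr i (rc N c) := by
  obtain ⟨c, h2, h3⟩ := img_bit h1
  obtain ⟨h4, h5⟩ := List.getElem?_eq_some_iff.1 h3
  exact ⟨c, h2, by rw [← (h.hprm i).2 c ((h.hprm i).1 ▸ h4), List.getD_eq_getElem _ _ h4, h5]⟩

theorem tv_sw (i : Fin l) {v : List ℤ} (hv : v.length = l) : tv l (lin (gz v i) v (rg cols i)) = R.sw i (tv l v) := by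
  rw [tv_lin _ _ _ _ (hv.trans (h.hcol i).1.symm), (h.hcol i).2]; rfl

/-- the enumeration reaches every abelian ideal -/
theorem ideal {p : ℕ} {ok : ℕ → Bool} (hok : ∀ r, ok r = true → ¬ p ∣ r + 1) {F : List RE} (hF : chkE N rl ok F = true)
    {P : ℕ → ℕ → Bool} (hP : enum P F 0 0 0 = true) {S : Finset (Fin N)} (hA : R.Ab p S) (hI : R.Idl p S) :
    ∃ I, Msk S I ∧ P I S.card = true := by
  rw [chkE, Bool.and_eq_true, List.all_eq_true] at hF
  have hN := Nat.beq_eq.mp hF.1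
  obtain ⟨I, h4, h5⟩ := enum_sound (S.image Fin.val) hP (fun m => by simp) (by simp) (fun m hm => by
      obtain ⟨b, _, rfl⟩ := Finset.mem_image.mp hm
      simp [hN]) fun m e he hm => by
    rw [zero_add] at hm ⊢
    obtain ⟨b, hb, rfl⟩ := Finset.mem_image.mp hm
    have hb2 := b.2
    have h1 := hF.2 b (List.mem_range.2 b.2)
    rw [he] at h1
    simp only [Bool.and_eq_true, List.all_eq_true, Bool.or_eq_true, Bool.not_eq_true', List.any_eq_true,
      List.mem_range, Nat.blt_eq] at h1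
    obtain ⟨⟨⟨h1, h2⟩, h3⟩, h6⟩ := h1
    refine ⟨fun a ha => ?_, fun a ha h7 => ?_⟩
    · have h7 := lt_of_bit h1 ha
      obtain ⟨β, hβ, h8, h9⟩ := (h3 a (by omega)).resolve_left (by rw [ha]; simp)
      have h10 := h.nz hok (by omega) (by omega) h9
      rw [show β = ((⟨β, hβ⟩ : Fin N) : ℕ) from rfl, rc_pos, rc_pos] at h10
      exact ⟨Finset.mem_image.2 ⟨⟨a, by omega⟩, hI b hb ⟨β, hβ⟩ _ (h.cf_eq h8) h10, rfl⟩, h7⟩
    · obtain ⟨a', ha', rfl⟩ := Finset.mem_image.mp h7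
      have h8 := a'.2
      have h10 := h.nz hok (by omega) (by omega) ((h6 a' a'.2).resolve_left (by rw [ha]; simp))
      rw [rc_pos, rc_pos] at h10
      exact hA a' ha' b hb h10
  rw [Finset.card_image_of_injective _ Fin.val_injective] at h5
  refine ⟨I, fun m => (h4 m).trans ⟨fun hm => ?_, fun ⟨h1, h2⟩ => Finset.mem_image.2 ⟨_, h2, rfl⟩⟩, h5⟩
  obtain ⟨b, hb, rfl⟩ := Finset.mem_image.mp hm
  exact ⟨b.2, hb⟩

variable {p : ℕ} {k L : Type} [Field k] [AddCommGroup L] [Module k L] {H : HW R p k L}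

/-- the base facts of a table: `μ` labels the orbit of `ν₀` -/
def Bs (H : HW R p k L) (ν₀ : Fin l → ℤ) (μ : List ℤ) (M : ℕ) : Prop :=
  ∀ c, M.testBit c = true → ∃ w, R.swl w (tv l μ) = tv l μ ∧ Act H (R.swl w ν₀) (rc N c)

theorem clo {ν₀ : Fin l → ℤ} {μ : List ℤ} {M M' : ℕ} {r : List (ℕ × ℕ)} (h1 : chkC l prm μ M' r M = true)
    (h2 : Bs H ν₀ μ M) : Bs H ν₀ μ M' := by
  induction r generalizing M with
  | nil => exact fun c hc => h2 c (sub_bit h1 hc)
  | cons e r ih =>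
    simp only [chkC, Bool.and_eq_true, Nat.blt_eq] at h1
    obtain ⟨⟨⟨h3, h4⟩, h5⟩, h6⟩ := h1
    refine ih h6 fun c hc => ?_
    have h7 := sub_bit h5 hc
    rw [Nat.testBit_or, Bool.or_eq_true] at h7
    rcases h7 with h7 | h7
    · exact h2 c h7
    · obtain ⟨c', h8, h9⟩ := h.prm_bit ⟨e.1, h3⟩ h7
      obtain ⟨w, h10, h11⟩ := h2 c' h8
      refine ⟨⟨e.1, h3⟩ :: w, ?_, by rw [h9]; exact h11.sw _⟩
      have h12 : tv l μ ⟨e.1, h3⟩ = 0 := eq_of_beq h4
      rw [R.swl_cons, h10, RC.sw, h12, zero_smul, sub_zero]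

theorem tab {ν₀ : Fin l → ℤ} {μ : List ℤ} (hμ : μ.length = l) {M : ℕ} (h2 : Bs H ν₀ μ M) {W : List WE}
    (hW : chkT l cols prm μ M W = true) : (W.map fun e => tv l e.2.2.1).Nodup ∧ ∀ e ∈ W, e.2.2.1.length = l ∧
      ∀ c, e.2.2.2.testBit c = true → ∃ w, R.swl w (tv l μ) = tv l e.2.2.1 ∧ Act H (R.swl w ν₀) (rc N c) := by
  induction W with
  | nil => simp
  | cons e W ih =>
    simp only [chkT, Bool.and_eq_true] at hW
    obtain ⟨⟨h1, h4⟩, h5⟩ := hW
    obtain ⟨h6, h7⟩ := ih h5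
    have h8 : e.2.2.1.length = l ∧
        ∀ c, e.2.2.2.testBit c = true → ∃ w, R.swl w (tv l μ) = tv l e.2.2.1 ∧ Act H (R.swl w ν₀) (rc N c) := by
      cases hq : W[e.2.1]? with
      | none =>
        rw [hq] at h1
        simp only [Bool.and_eq_true] at h1
        rw [eq_of_beq h1.1]
        exact ⟨hμ, fun c hc => h2 c (sub_bit h1.2 hc)⟩
      | some q =>
        rw [hq] at h1
        simp only [Bool.and_eq_true, Nat.blt_eq] at h1
        obtain ⟨⟨h1, h3⟩, h9⟩ := h1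
        obtain ⟨h10, h11⟩ := h7 q (List.mem_of_getElem? hq)
        rw [eq_of_beq h3]
        refine ⟨(length_lin _ (h10.trans (h.hcol ⟨e.1, h1⟩).1.symm)).trans h10, fun c hc => ?_⟩
        obtain ⟨c', h12, h13⟩ := h.prm_bit ⟨e.1, h1⟩ (sub_bit h9 hc)
        obtain ⟨w, h14, h15⟩ := h11 c' h12
        exact ⟨⟨e.1, h1⟩ :: w, by rw [R.swl_cons, h14]; exact (h.tv_sw ⟨e.1, h1⟩ h10).symm,
          by rw [h13]; exact h15.sw _⟩
    refine ⟨?_, fun e' he' => ?_⟩
    · rw [List.map_cons, List.nodup_cons]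
      refine ⟨fun h9 => ?_, h6⟩
      obtain ⟨e', he', h10⟩ := List.mem_map.mp h9
      rw [Bool.not_eq_true', ← Bool.not_eq_true, List.any_eq_true] at h4
      exact h4 ⟨e', he', by rw [tv_inj (h7 e' he').1 h8.1 h10]; exact beq_self_eq_true _⟩
    · rcases List.mem_cons.mp he' with rfl | he'
      · exact h8
      · exact h7 e' he'

/-- **the count** -/
theorem orb {ν₀ : Fin l → ℤ} {μ : List ℤ} (hμ : μ.length = l) (h0 : ∀ i, 0 ≤ tv l μ i ∧ tv l μ i ≤ ν₀ i) {M : ℕ}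
    (h2 : Bs H ν₀ μ M) {W : List WE} (hW : chkT l cols prm μ M W = true) {S : Finset (Fin N)} {I : ℕ} (hI : Msk S I) :
    Orb H S ν₀ (cnt I W) := by
  classical
  obtain ⟨h3, h4⟩ := h.tab hμ h2 hW
  have h5 : ∀ ν ∈ ((W.filter fun e => !(e.2.2.2 &&& I).beq 0).map fun e => tv l e.2.2.1).toFinset,
      ∃ w, R.swl w (tv l μ) = ν ∧ ∃ b ∈ S, Act H (R.swl w ν₀) (true, b) := fun ν hν => by
    obtain ⟨e, he, rfl⟩ := List.mem_map.mp (List.mem_toFinset.mp hν)
    obtain ⟨he, h6⟩ := List.mem_filter.mp he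
    have h10 : e.2.2.2 &&& I ≠ 0 := fun h => by rw [h] at h6; exact absurd h6 (by decide)
    obtain ⟨m, hm⟩ := Nat.exists_testBit_of_ne_zero h10
    rw [Nat.testBit_and, Bool.and_eq_true] at hm
    obtain ⟨h7, h8⟩ := (hI m).1 hm.2
    obtain ⟨w, h9, h11⟩ := (h4 e he).2 m hm.1
    exact ⟨w, h9, _, h8, by rwa [← rc_pos]⟩
  choose! f hf using h5
  refine ⟨(((W.filter fun e => !(e.2.2.2 &&& I).beq 0).map fun e => tv l e.2.2.1).toFinset).image
    fun ν => R.swl (f ν) ν₀, ?_, fun ν hν => ?_⟩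
  · rw [Finset.card_image_of_injOn, List.toFinset_card_of_nodup (h3.sublist (List.filter_sublist.map _)),
      List.length_map, cnt_eq]
    intro ν hν ν' hν' e
    rw [← (hf ν hν).1, ← (hf ν' hν').1]
    exact R.swl_eq_of_add (fun i => (h0 i).1) (ν := ν₀ - tv l μ)
      (fun i => by have := (h0 i).2; simp only [Pi.sub_apply]; omega) (by rwa [add_sub_cancel])
  · obtain ⟨ν', hν', rfl⟩ := Finset.mem_image.mp hν
    exact ⟨⟨_, rfl⟩, (hf ν' hν').2⟩

variable [CharP k p] {ok : ℕ → Bool} (hok : ∀ r, ok r = true → ¬ p ∣ r + 1)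
include hok

theorem top0 {G M : ℕ} (h1 : chkTop N rl ok G M = true)
    (hG : ∀ a : Fin N, G.testBit a = true → ¬ (p : ℤ) ∣ R.pair H.lz (true, a)) {v : L} (hv : v ∈ H.w H.lz) (h0 : v ≠ 0)
    (a : Fin N) (ha : M.testBit a = true) : H.E (false, a) 1 v ≠ 0 := by
  simp only [chkTop, Bool.and_eq_true, List.all_eq_true, Bool.or_eq_true, Bool.not_eq_true', List.any_eq_true,
    List.mem_range, Nat.blt_eq] at h1
  refine top_ne hv h0 (M := fun a => M.testBit a = true) (fun a ha => ?_) a ha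
  have := a.2
  rcases h1.2 a a.2 with (h2 | h2) | ⟨β, hβ, a', ha', ⟨h2, h3⟩, h4⟩
  · rw [ha] at h2; exact absurd h2 (by simp)
  · exact Or.inl (hG a h2)
  · have h5 := h.nz hok (by omega) (by omega) h4
    rw [show β = ((⟨β, hβ⟩ : Fin N) : ℕ) from rfl, rc_pos, rc_neg] at h5
    exact Or.inr ⟨⟨β, hβ⟩, ⟨a', ha'⟩, h.cf_eq h3, h5, h2⟩

theorem top {G M : ℕ} (h1 : chkTop N rl ok G M = true)
    (hG : ∀ a : Fin N, G.testBit a = true → ¬ (p : ℤ) ∣ R.pair H.lz (true, a)) (μ : List ℤ) :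
    Bs H H.lz μ (M <<< N) := by
  intro c hc
  obtain ⟨v, hv, h0⟩ := H.isWt_iff.1 H.isWt_lz
  rw [Nat.testBit_shiftLeft, Bool.and_eq_true, decide_eq_true_eq] at hc
  have h2 : M < 2 ^ N := by
    rw [chkTop, Bool.and_eq_true, Nat.blt_eq] at h1
    exact h1.1
  have h3 := lt_of_bit h2 hc.2
  refine ⟨[], rfl, v, hv, ?_⟩
  rw [show c = N + ((⟨c - N, h3⟩ : Fin N) : ℕ) by simp; omega, rc_neg]
  exact h.top0 hok h1 hG hv h0 _ hc.2

theorem sec {G M G' M' : ℕ} {β : Fin N} (h1 : chkTop N rl ok G M = true) (h2 : chkSec l N rl ok G M β G' M' = true)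
    (hG : ∀ a : Fin N, G.testBit a = true → ¬ (p : ℤ) ∣ R.pair H.lz (true, a))
    (hG' : ∀ a : Fin N, G'.testBit a = true → ¬ (p : ℤ) ∣ R.pair (H.lz - R.wt (true, β)) (true, a)) (μ : List ℤ) :
    Bs H (H.lz - R.wt (true, β)) μ M' := by
  intro c hc
  obtain ⟨v, hv, h0⟩ := H.isWt_iff.1 H.isWt_lz
  simp only [chkSec, Bool.and_eq_true, List.all_eq_true, Bool.or_eq_true, Bool.not_eq_true', List.any_eq_true,
    List.mem_range, Nat.blt_eq, Nat.beq_eq] at h2
  obtain ⟨⟨⟨⟨h2, -⟩, h3⟩, h4⟩, h5⟩ := h2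
  have h6 := lt_of_bit h2 hc
  have h7 : H.E (false, β) 1 v ∈ H.w (H.lz - R.wt (true, β)) := by rw [sub_wt]; exact H.E1_w _ hv
  have := β.2
  refine ⟨[], rfl, ?_⟩
  by_cases h8 : c < N
  · rw [show c = ((⟨c, h8⟩ : Fin N) : ℕ) from rfl, rc_pos]
    rcases h4 c h8 with (h9 | ⟨rfl, h9⟩) | ⟨z, hz, ⟨h9, h10⟩, h11⟩
    · rw [hc] at h9; exact absurd h9 (by simp)
    · exact ⟨_, h7, ef_top hv h0 (hG β h9)⟩
    · have h12 := h.nz hok (by omega) (by omega) h11
      rw [show c = ((⟨c, h8⟩ : Fin N) : ℕ) from rfl, rc_pos, rc_neg] at h12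
      exact ⟨_, h7, br_top hv (h.cf_eq (c := ⟨z, hz⟩) h10) h12 (h.top0 hok h1 hG hv h0 _ h9)⟩
  · have h9 : c - N < N := by omega
    have h10 : c = N + ((⟨c - N, h9⟩ : Fin N) : ℕ) := by simp; omega
    rcases h5 (c - N) h9 with h11 | ⟨h11, j, hj, h12⟩
    · rw [show N + (c - N) = c by omega, hc] at h11; exact absurd h11 (by simp)
    · rw [h10, rc_neg]
      refine act_end hv (h.top0 hok h1 hG hv h0 _ h3) (j := ⟨j, hj⟩) ?_ (hG' _ h11)
      have h13 := congrFun (h.hrl β (by omega)).2 ⟨j, hj⟩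
      have h14 := congrFun (h.hrl (c - N) (by omega)).2 ⟨j, hj⟩
      rw [rc_pos, R.vec_true] at h13
      rw [show c - N = ((⟨c - N, h9⟩ : Fin N) : ℕ) from rfl, rc_pos, R.vec_true] at h14
      have h15 := isNeg_iff.1 h12
      simp only [tv] at h13 h14
      omega

end TB

end Cfsg.Agent.TwoF.DC.TF
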