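import Cfsg.Agent.TwoF.DC.TFG.Sp2
import Cfsg.Agent.TwoF.DC.TFG.CF
import Cfsg.Agent.TwoF.DC.TE.Tw
import Cfsg.Agent.ChevalleyStructure.GraphG2
import Cfsg.Agent.ChevalleyStructure.GraphF4
import Cfsg.Agent.S1055
import Cfsg.Agent.S2100
import Cfsg.Agent.S2101
import Cfsg.Agent.S2102
import Cfsg.Agent.S2103
import Cfsg.Agent.S2104
import Cfsg.Agent.S2121
import Cfsg.Agent.S2122

/-!
# TwoF, defining characteristic: the types `G2`, `F4` (helper25)

`g2`, `f4` : the fields of `Types`.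
-/

set_option autoImplicit false
set_option linter.unusedSectionVars false
set_option linter.unusedVariables false
set_option maxHeartbeats 400000

namespace Cfsg.Agent.TwoF.DC.TF

open Cfsg Cfsg.Lie Cfsg.Agent.ChevalleyStructure Cfsg.Agent.Nodes.RGDChev Cfsg.Agent.H405.UE Cfsg.Agent.TwoF.DC.RD
open Cfsg.Agent.H564.U (zz zz_zero)
open Cfsg.Agent.GpExc.Field (emb emb_injective)
open Cfsg.Agent.BpExc.Emb (mem_range_of_pow)

section rd

variable {p : ℕ} [Fact p.Prime] {k : Type} [Field k] [IsAlgClosed k] [CharP k p] {D : ChevalleyDatum} {l : ℕ}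
  {M : CoxeterMatrix (Fin l)} {hp : IsType D l M} (Fu : Fund hp k) {Φ : Type} [Fintype Φ] [DecidableEq Φ]
  {R : RC (Fin l) Φ} {ix : Φ → ℕ} (T : Tab D l R ix) (H : Hts D l)

variable (p) in
/-- no graph automorphisms -/
noncomputable def twR (f : ℕ) (hf : 0 < f) : Tws (rdat Fu p T H) where
  f := f
  f_pos := hf
  Fr := emb hp.inList (frobenius k p)
  Fr_z b t := TE.emb_zz hp _ _ _
  Fr_y i t := TE.emb_zz hp _ _ _
  Gr := Unit
  gr := 1
  gι := 1
  gΦ := 1
  gι_inj _ _ _ := rfl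
  gr_x _ _ _ := rfl
  gr_y _ _ _ := rfl
  gr_z _ _ := ⟨1, fun t => by rw [Units.val_one, one_mul]; rfl⟩
  cf_gr _ _ _ := rfl
  co_gr _ _ _ := rfl
  C_gr _ _ _ := rfl
  ht_gr _ _ := rfl
  Gr_small := by simp
  σ := 1
  orth i i' h1 h2 := absurd (Equiv.Perm.sameCycle_one.mp h1) h2

variable {f : ℕ} (hf : 0 < f) {F : Type} [Field F] [Fintype F] (φ : F →+* k) (hq : Fintype.card F = p ^ f)

include φ hq

theorem iso_TT (hF : (rdat Fu p T H).Fa) : Nonempty ((twR p Fu T H f hf).TT ≃* ↥(D.group F)) := by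
  have h : (twR p Fu T H f hf).TT = (emb hp.inList φ).range := by
    refine le_antisymm (TE.TT_le _ hF (fun i => rfl) (fun _ => True) (fun _ => Or.inl trivial) (fun i a _ ha => ?_)
      fun i a _ hi => absurd rfl hi) ?_
    · obtain ⟨b, rfl⟩ := mem_range_of_pow φ (hq ▸ ha)
      exact ⟨⟨zz hp _ b, TE.emb_zz hp _ _ _⟩, ⟨zz hp _ b, TE.emb_zz hp _ _ _⟩⟩
    · rw [MonoidHom.range_eq_map, ← closure_simple hp, Subgroup.map_le_iff_le_comap, Subgroup.closure_le]
      have h1 : ∀ s : F, φ s ^ p ^ f = φ s := fun s => by rw [← hq, ← map_pow, FiniteField.pow_card]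
      rintro _ ⟨i, s, rfl | rfl⟩
      · rw [zz_simple, SetLike.mem_coe, Subgroup.mem_comap, TE.emb_zz, ← rdat_x Fu p T H]
        exact (TE.single_mem_TT (twR p Fu T H f hf) rfl (h1 s)).1
      · rw [zz_neg_simple, SetLike.mem_coe, Subgroup.mem_comap, TE.emb_zz, ← rdat_y Fu p T H]
        exact (TE.single_mem_TT (twR p Fu T H f hf) rfl (h1 s)).2
  exact ⟨(MulEquiv.subgroupCongr h).trans (MonoidHom.ofInjective (emb_injective _ φ)).symm⟩

variable [Finite ↥(D.group F)] (hS : IsSimpleGroup ↥(D.group F) ∧ ¬ IsMulCommutative ↥(D.group F)) {a : ℕ}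
  (hA : HasCyclicSchurMultiplier ↥(D.group F) (p ^ a))

include hS hA

theorem row_std (hC : (twR p Fu T H f hf).Comb fun _ => True) (hO : Nat.card (Out ↥(D.group F)) ≤ f) :
    Row p ↥(D.group F) := by
  obtain ⟨e⟩ := iso_TT Fu T H hf φ hq hC.fa
  refine boxFin (boxStd_pow Pw.boxPow) p _ _ k _ _ _ _ ⟨hS.1, hS.2, ⟨e.toMonoidHom, e.surjective,
    ((MonoidHom.ker_eq_bot_iff _).2 e.injective).le.trans bot_le⟩, 1, ?_,
    ⟨_, _, a, hA, by rw [one_mul]; exact (Nat.card_zmod _).dvd⟩, ?_⟩ hC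
  · have := TE.finite_Zc (twR p Fu T H f hf)
    exact Nat.card_pos
  · rw [Subgroup.card_eq_card_quotient_mul_card_subgroup (Inn _), one_mul]
    exact Nat.mul_le_mul (hO.trans (Nat.le_mul_of_pos_left _ Nat.card_pos))
      (Nat.card_le_card_of_surjective _ (MonoidHom.rangeRestrict_surjective _))

theorem row_sp [NeZero l] {sh : Fin l → Bool} {τ : Equiv.Perm (Fin l)} {bar lam : ℕ → ℕ} (α : ↥(D.group k) ≃* ↥(D.group k))
    (hα : ∀ (g : ↥(D.group k)) (r : ℕ) (t : k), r < D.nroots → ((g : GL D.Idx k) : Matrix _ _ k) = D.x k r t →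
      ((α g : GL D.Idx k) : Matrix _ _ k) = D.x k (bar r) (t ^ lam r))
    (h1 : ∀ i, sh (τ i) = !sh i ∧ τ (τ i) = i ∧ D.simple i < D.nroots ∧ D.neg (D.simple i) < D.nroots ∧
      bar (D.simple i) = D.simple (τ i) ∧ bar (D.neg (D.simple i)) = D.neg (D.simple (τ i)) ∧
      lam (D.simple i) = p ^ (sh i).toNat ∧ lam (D.neg (D.simple i)) = p ^ (sh i).toNat)
    (h2 : ∀ b, ∃ b', bar (ix b) = ix b') (hC : (twR p Fu T H f hf).Comb fun l => ∀ i, sh i = false → l i = 0) {m : ℕ}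
    (hm : 0 < m) (hX : Mix R p k sh m) (h3 : p ∣ 2 * f → 3 ≤ f * m) (hO : Nat.card (Out ↥(D.group F)) ≤ 2 * f) :
    Row p ↥(D.group F) := by
  obtain ⟨e⟩ := iso_TT Fu T H hf φ hq hC.fa
  have h4 : ∀ r < D.nroots, ∀ t, α (zz hp r t) = zz hp (bar r) (t ^ lam r) := fun r hr t =>
    Subtype.ext (Units.ext (hα _ r t hr rfl))
  let I : Isg (rdat Fu p T H) :=
    { sh := sh
      τ := τ
      sh_τ := fun i => (h1 i).1
      τ_τ := fun i => (h1 i).2.1
      θ := α.toMonoidHom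
      θ_x := fun i t => by
        rw [← (h1 i).2.2.2.2.2.2.1, rdat_x, rdat_x, ← (h1 i).2.2.2.2.1]
        exact h4 _ (h1 i).2.2.1 t
      θ_y := fun i t => by
        rw [← (h1 i).2.2.2.2.2.2.2, rdat_y, rdat_y, ← (h1 i).2.2.2.2.2.1]
        exact h4 _ (h1 i).2.2.2.1 t
      θ_U := fun u hu => by
        refine (Subgroup.closure_le (K := (rdat Fu p T H).U.comap α.toMonoidHom)).2 ?_ hu
        rintro _ ⟨b, t, rfl⟩
        obtain ⟨b', h⟩ := h2 b
        exact Subgroup.subset_closure ⟨b', _, (h4 _ (T.lt b) t).trans (by rw [h]; rfl)⟩ }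
  exact I.row (twR p Fu T H f hf) (fun _ => rfl) hC hm hX h3 hS.1 hS.2 e hA
    (by rw [one_mul]; exact (Nat.card_zmod _).dvd) hO

end rd

theorem perf (p : ℕ) [Fact p.Prime] (k : Type) [Field k] [IsAlgClosed k] (x : k) : ∃ y : k, y ^ p = x :=
  IsAlgClosed.exists_pow_nat_eq x (Fact.out : p.Prime).pos

/-- **`G_2(q)`** -/
theorem g2 : TBox (IsoChar fun F _ _ S _ => 3 ≤ Fintype.card F ∧ Nonempty (S ≃* Lie.chevG2.group F)) := by
  classical
  rintro p _ S _ _ _ ⟨F, _, _, _, h3, ⟨e⟩⟩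
  obtain ⟨⟨f, hf⟩, hp, hq⟩ := FiniteField.card F p
  replace hq : Fintype.card F = p ^ f := hq
  have := Finite.of_equiv _ e.toEquiv
  let k := AlgebraicClosure F
  have ty : IsType chevG2 2 CoxeterMatrix.G₂ := by simp [IsType, typeList]
  obtain ⟨Fu⟩ := fund_G2 ty k
  have hS := S1055.result (F := F) (by
    by_contra! h
    have h1 := Finset.card_le_card (s := Finset.univ) (t := ({0, 1} : Finset F)) fun a _ => by
      simpa [or_iff_not_imp_left] using h a
    exact absurd (h3.trans (h1.trans Finset.card_le_two)) (by decide))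
  obtain ⟨a, hA⟩ : ∃ a, HasCyclicSchurMultiplier ↥(chevG2.group F) (p ^ a) := by
    obtain h | h | h : Fintype.card F = 3 ∨ Fintype.card F = 4 ∨ 5 ≤ Fintype.card F := by omega
    · exact ⟨f, hq ▸ h ▸ S2101.result h⟩
    · obtain rfl : p = 2 := (Nat.prime_dvd_prime_iff_eq hp Nat.prime_two).1
        (hp.dvd_of_dvd_pow (n := 2) ((dvd_pow_self p hf.ne').trans (hq.symm.trans h).dvd))
      exact ⟨1, S2102.result h⟩
    · exact ⟨0, S2100.result h⟩
  have hO := S2121.result p f hq (hq ▸ h3)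
  have hx : ∀ i, (![1, 0] : Fin 2 → ℕ) i < p := fun i => lt_of_le_of_lt (by revert i; decide) hp.one_lt
  refine Row.of_equiv ?_ e
  by_cases h : p = 3
  · subst h
    obtain ⟨α, hα⟩ := GraphG2.exists_graph (perf 3 k)
    refine row_sp Fu tabG htG hf (algebraMap F k) hq hS hA (sh := sG) (τ := Equiv.swap 0 1) α hα (by decide +kernel)
      (by decide +kernel) (comb_of _ (fun _ => rfl) ⟨_, hx, by decide, by decide⟩ dichG3 (gdG1 rfl)) one_pos mixG3
      (fun h => ?_) hO.le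
    omega
  refine row_std Fu tabG htG hf (algebraMap F k) hq hS hA ?_ (hO.trans (if_neg h)).le
  by_cases h2 : p = 2
  · subst h2
    exact comb_of _ (fun _ => rfl) ⟨_, hx, by decide, trivial⟩ dichG2 (gdG0 rfl rfl)
  · exact comb_of _ (fun _ => rfl) ⟨_, hx, by decide, trivial⟩ (dichG5 (hp.five_le_of_ne_two_of_ne_three h2 h))
      (gdG1 rfl)

theorem even_F4 : ∀ b b', shF b → shF b' → rcF.cf 0 = rcF.cf b + rcF.cf b' → ixF b ≠ ixF b' ∧
    ∀ c ∈ chevF4.commTerms (ixF b') (ixF b), 2 ∣ c.2.1 := by decide +kernel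

/-- **`F_4(q)`** -/
theorem f4 : TBox (IsoChar fun F _ _ S _ => Nonempty (S ≃* Lie.chevF4.group F)) := by
  rintro p _ S _ _ _ ⟨F, _, _, _, ⟨e⟩⟩
  obtain ⟨⟨f, hf⟩, hp, hq⟩ := FiniteField.card F p
  replace hq : Fintype.card F = p ^ f := hq
  have := Finite.of_equiv _ e.toEquiv
  let k := AlgebraicClosure F
  have ty : IsType chevF4 4 CoxeterMatrix.F₄ := by simp [IsType, typeList]
  obtain ⟨Fu⟩ := fund_F4 ty k
  have hS := S1054.result (F := F) chevF4 (by simp)
  obtain ⟨a, hA⟩ : ∃ a, HasCyclicSchurMultiplier ↥(chevF4.group F) (p ^ a) := by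
    obtain h | h : Fintype.card F = 2 ∨ 3 ≤ Fintype.card F := by have := Fintype.one_lt_card (α := F); omega
    · exact ⟨f, hq ▸ h ▸ S2104.result h⟩
    · exact ⟨0, S2103.result h⟩
  have hO := S2122.result p f hq
  have hx : ∀ i, (![1, 0, 0, 0] : Fin 4 → ℕ) i < p := fun i => lt_of_le_of_lt (by revert i; decide) hp.one_lt
  refine Row.of_equiv ?_ e
  by_cases h : p = 2
  · subst h
    obtain ⟨α, hα⟩ := GraphF4.exists_graph (perf 2 k)
    refine row_sp Fu tabF htF hf (algebraMap F k) hq hS hA (sh := sF) (τ := Fin.revPerm) α hα (by decide +kernel)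
      (by decide +kernel) (comb_of _ (fun _ => rfl) ⟨_, hx, by decide, by decide⟩ dichF2
        (gdF2 rfl fun b b' h1 h2 h3 s t => ?_)) three_pos mixF2 (fun _ => by omega) hO.le
    obtain ⟨h4, h5⟩ := even_F4 b b' h1 h2 h3
    refine commutatorElement_eq_one_iff_commute.1 ((comm_zz ty (tabF.lt b') (tabF.lt b) h4 (tabF.ne_neg ty b b') t s).trans
      (List.prod_eq_one fun x hx => ?_))
    obtain ⟨_, h6, rfl⟩ := List.mem_map.1 hx
    obtain ⟨c, hc, rfl⟩ := List.mem_map.1 h6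
    rw [(CharP.intCast_eq_zero_iff k 2 _).2 (h5 c hc), zero_mul, zero_mul, zz_zero]
  have h3 : 3 ≤ p := by have := hp.two_le; omega
  refine row_std Fu tabF htF hf (algebraMap F k) hq hS hA
    (comb_of _ (fun _ => rfl) ⟨_, hx, by decide, trivial⟩ (dichF h3) (gdF1 h3 rfl)) ?_
  rw [hO, ((Nat.coprime_primes Nat.prime_two hp).2 (Ne.symm h)).gcd_eq_one, one_mul]

end Cfsg.Agent.TwoF.DC.TF
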