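import Cfsg.Agent.TwoF.DC.TFG.CG
import Cfsg.Agent.TwoF.DC.TC.Gen
import Cfsg.Agent.TwoF.DC.Asm.Main
import Cfsg.Agent.TwoF.DC.Fin.Main

/-!
# TwoF, defining characteristic: groups with a special isogeny (1), type free (helper25)

`Sx M` : an automorphism `θ` of the finite group with `θ ^ 2 = Fr` which exchanges the short and the long nodes.
-/

set_option autoImplicit false
set_option linter.unusedSectionVars false
set_option linter.unusedVariables false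

namespace Cfsg.Agent.TwoF.DC.TF

open Module Finset Cfsg.Agent.TwoF.Gen Cfsg.Agent.TwoF.DC.TC

variable {p : ℕ} [hp : Fact p.Prime] {ι Φ k G : Type} [Fintype ι] [DecidableEq ι] [Fintype Φ] [DecidableEq Φ] [Field k]
  [IsAlgClosed k] [CharP k p] [Group G] {D : RDat p ι Φ k G} {T S : Type} [Group T] [Finite T] [Group S]
  {Y U : Type} [Group Y] [Finite Y] [AddCommGroup U] [Module k U]

theorem two_le_d {R : RC ι Φ} {L : Type} [AddCommGroup L] [Module k L] (H : HW R p k L) : 2 ≤ H.d := by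
  classical
  obtain ⟨i, hi⟩ := H.exists_lam_pos
  have h := H.card_le_d {H.lz, R.sw i H.lz} (by
    simp only [mem_insert, mem_singleton]
    rintro _ (rfl | rfl)
    exacts [H.ext_lz.isWt, (H.ext_lz.sw i).isWt])
  rwa [card_pair fun e => by
    have h1 := congrFun e i
    rw [R.sw_self, H.lz_apply] at h1
    omega] at h

theorem sum_le_sub {α : Type} [Fintype α] [DecidableEq α] (d u : α → ℕ) (A : Finset α) (h1 : ∀ a, 1 ≤ d a)
    (h2 : ∀ a ∈ A, 2 ≤ d a) (h3 : ∀ a, a ∉ A → d a ≤ u a) {x : ℕ} (h : ∀ a ∈ A, x ≤ u a * ∏ c ∈ univ.erase a, d c) :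
    ∑ a, (d a - u a) ≤ ∏ a, d a - x := by
  rw [← Finset.sum_subset A.subset_univ fun a _ ha => Nat.sub_eq_zero_of_le (h3 a ha)]
  rcases A.eq_empty_or_nonempty with rfl | hA
  · simp
  refine Nat.le_of_mul_le_mul_right ?_ hA.card_pos
  rw [Finset.sum_mul, mul_comm (_ - x), ← smul_eq_mul]
  refine Finset.sum_le_card_nsmul _ _ _ fun a ha => ?_
  have h4 : A.card ≤ ∏ c ∈ univ.erase a, d c := by
    refine le_trans ?_ ((Finset.pow_card_le_prod (A.erase a) d 2 fun c hc => h2 c (mem_of_mem_erase hc)).trans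
      (Finset.prod_le_prod_of_subset_of_one_le' (erase_subset_erase a A.subset_univ) fun c _ _ => h1 c))
    rw [← card_erase_add_one ha]
    exact Nat.lt_two_pow_self
  rw [← Finset.mul_prod_erase univ d (mem_univ a)]
  exact (Nat.mul_le_mul_left _ h4).trans ((Nat.sub_mul _ _ _).trans_le (Nat.sub_le_sub_left (h a ha) _))

/-- a pattern with a nonzero digit at a node of kind `b` occurs -/
def Hs (M : Std D T S) (sh : ι → Bool) (ρ : Representation k Y U) (ψ : T →* Y) (b : Bool) : Prop :=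
  ∃ n ∈ M.N ρ ψ, ∃ a i, sh i = b ∧ n a i ≠ 0

variable {M : Std D T S} {C : Can D} {ρ : Representation k Y U} {ψ : T →* Y} {irrK : Prop} {sh : ι → Bool}

theorem Hs.pos (X : Cty M C ρ ψ irrK) (hG : ∀ γ : M.Gr, γ = 1) {b : Bool} (h : Hs M sh ρ ψ b) (a : Fin M.f) :
    ∃ n ∈ M.N ρ ψ, ∃ i, sh i = b ∧ n a i ≠ 0 := by
  obtain ⟨n, hn, a', i, h1, h2⟩ := h
  refine ⟨M.act 1 (M.f - a + a') n, X.sh.act _ hn, i, h1, ?_⟩
  have h3 : (a : ℕ) + (M.f - a + a') = a' + M.f * 1 := by have := a.2; omega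
  rwa [M.act_apply', hG (_ * _), map_one, h3, M.pos_add_mul, M.pos_val]

/-- **both kinds of nodes occur: the codimensions are large** -/
theorem mix_le (X : Cty M C ρ ψ irrK) (hG : ∀ γ : M.Gr, γ = 1) {m : ℕ} (hM : Mix D.R p k sh m) (h1 : Hs M sh ρ ψ true)
    (h2 : Hs M sh ρ ψ false) {B : Subgroup T} (hB : B ≤ M.E.U) (hc : ∀ x ∈ B, ∀ y ∈ B, x * y = y * x) {r : ℕ}
    (hr0 : 0 < r) (hr : Nat.card B = p ^ r) : 2 * r + M.f * m ≤ cod ρ (B.map ψ) := by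
  obtain ⟨Sg, h3, hA, hI, h4⟩ := X.deg2.idl _ (X.deg1.com _ (M.map_U_le hB) (by
    rintro _ ⟨x, hx, rfl⟩ _ ⟨y, hy, rfl⟩
    rw [← map_mul, ← map_mul, hc x hx y hy]))
  have h5 := M.card_le_ld X.deg1 X.fa hB
  rw [hr, Nat.pow_le_pow_iff_right hp.out.one_lt, ← h3] at h5
  have hS : Sg.Nonempty := card_pos.1 (Nat.pos_of_ne_zero fun h => by rw [h] at h5; omega)
  have h6 : ∀ n ∈ M.N ρ ψ, ∑ a, (dd D (n a) - C.u (n a) Sg) ≤ M.Dn n - finrank k (M.fxW n B) := fun n hn => by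
    have h6 : ∀ a ∈ M.supp n, 2 ≤ dd D (n a) := fun a ha =>
      C.d_eq _ (Cty.res hn a) (M.mem_supp.1 ha) ▸ two_le_d _
    refine sum_le_sub _ _ (M.supp n) (fun a => ?_) h6 (fun a ha => ?_) fun a ha => ?_
    · by_cases ha : a ∈ M.supp n
      · exact one_le_two.trans (h6 a ha)
      · rw [not_not.1 (mt M.mem_supp.2 ha), dd_zero]
    · rw [not_not.1 (mt M.mem_supp.2 ha), dd_zero, C.u_zero]
    · refine (fxW_le_mul C M (Cty.pats hn) (IsPGroup.of_card hr) a).trans (Nat.mul_le_mul_right _ ?_)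
      have h0 := M.mem_supp.1 ha
      have h7 := X.deg1.ker _ (C.H _ (Cty.res hn a) h0) (C.rep _ _ h0) _ (M.map_U_le hB) 1 (C.H _ _ h0).lev_one 1
        (one_mem _)
      have h8 : LinearMap.ker ((1 : Module.End k (Lc D (n a))) - 1) = ⊤ :=
        LinearMap.ker_eq_top.2 (sub_self (1 : Module.End k (Lc D (n a))))
      rw [map_one, mul_one, h8, inf_top_eq, inf_top_eq, C.ρ_eq] at h7
      rw [C.u_eq _ (Cty.res hn a) h0]
      exact h7.trans (h4 _ _ (C.rep _ _ h0))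
  obtain ⟨w, hw⟩ : ∃ w : (ι → ℕ) → ℕ, ∀ ν, dd D ν - C.u ν Sg = w ν := ⟨_, fun _ => rfl⟩
  simp only [hw] at h6
  have h7 : ∀ a, 2 * Sg.card + m ≤ ∑ n ∈ M.N ρ ψ, w (n a) := fun a => by
    obtain ⟨n, hn, i, h7, h8⟩ := h1.pos X hG a
    obtain ⟨n', hn', i', h9, h10⟩ := h2.pos X hG a
    have h0 : n a ≠ 0 := fun e => h8 (congrFun e i)
    have h0' : n' a ≠ 0 := fun e => h10 (congrFun e i')
    have h11 := hM _ _ (C.H _ (Cty.res hn a) h0) (C.H _ (Cty.res hn' a) h0') ⟨i, h7, by rwa [C.lam]⟩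
      ⟨i', h9, by rwa [C.lam]⟩ Sg hS hA hI
    have h12 := C.cL_add_u _ (Cty.res hn a) h0 Sg
    have h13 := C.cL_add_u _ (Cty.res hn' a) h0' Sg
    have h14 := hw (n a)
    have h15 := hw (n' a)
    by_cases e : n = n'
    · subst e
      refine le_trans ?_ (single_le_sum (f := fun n : Fin M.f → ι → ℕ => w (n a)) (fun _ _ => Nat.zero_le _) hn)
      have := h11.2 ⟨i', h9, by rwa [C.lam]⟩
      omega
    · refine le_trans ?_ (add_le_sum (f := fun n : Fin M.f → ι → ℕ => w (n a)) (fun _ _ => Nat.zero_le _) hn hn' e)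
      have := h11.1
      omega
  refine le_trans ?_ ((sum_le_sum fun n hn => (h6 n hn).trans (Nat.le_mul_of_pos_left _ (Cty.one_le_mult hn))).trans
    (X.sum_le_cod_inner subset_rfl B))
  rw [sum_comm]
  refine le_trans ?_ (card_nsmul_le_sum univ _ _ fun a _ => h7 a)
  rw [card_univ, Fintype.card_fin, smul_eq_mul]
  nlinarith

/-- a special isogeny -/
structure Sx (M : Std D T S) where
  gr1 : ∀ γ : M.Gr, γ = 1
  sh : ι → Bool
  τ : Equiv.Perm ι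
  sh_τ : ∀ i, sh (τ i) = !sh i
  θ : MulAut T
  Δ_θ : ∀ i s, D.Δ (τ i) (M.φ (θ s)) = D.Δ i (M.φ s) ^ p ^ (sh i).toNat
  θ_θ : ∀ s, M.φ (θ (θ s)) = M.Fr (M.φ s)
  θ_U : ∀ u ∈ M.E.U, θ u ∈ M.E.U
  odd : ∀ u ∈ M.E.U, ∀ j, ∃ x ∈ M.E.U, u * (θ ^ (2 * j + 1)) x * u⁻¹ ≠ x
  inn : ∀ s d, θ ^ d = MulAut.conj s → 2 * M.f ∣ d
  cen : Subgroup.center T = ⊥
  out : Nat.card (Out T) ≤ 2 * M.f

namespace Sx

variable (Z : Sx M)

theorem pow_two (j : ℕ) (s : T) : M.φ ((Z.θ ^ (2 * j)) s) = M.tw 1 j (M.φ s) := by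
  rw [M.tw_apply, M.gr_one]
  induction j with
  | zero => rfl
  | succ j ih => rw [Function.iterate_succ_apply', ← ih, ← Z.θ_θ, mul_add, add_comm, pow_add]; rfl

theorem pow_f : Z.θ ^ (2 * M.f) = 1 := MulEquiv.ext fun s => M.φ_inj (by rw [Z.pow_two, ← Z.gr1 M.σ, M.tw_φ]; rfl)

theorem pow_eq_one {s : T} {d : ℕ} (h : Z.θ ^ d = MulAut.conj s) : Z.θ ^ d = 1 ∧ s = 1 := by
  obtain ⟨c, rfl⟩ := Z.inn s d h
  rw [pow_mul, Z.pow_f, one_pow] at h ⊢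
  refine ⟨rfl, Subgroup.mem_bot.1 (Z.cen ▸ Subgroup.mem_center_iff.2 fun g => ?_)⟩
  exact (mul_inv_eq_iff_eq_mul.1 (DFunLike.congr_fun h g).symm).symm

theorem pow_U (i : ℕ) {u : T} (hu : u ∈ M.E.U) : (Z.θ ^ i) u ∈ M.E.U := by
  induction i with
  | zero => exact hu
  | succ i ih => rw [pow_succ']; exact Z.θ_U _ ih

theorem zpowers_eq : Subgroup.zpowers (QuotientGroup.mk Z.θ : Out T) = ⊤ := by
  refine Subgroup.eq_top_of_card_eq _ (le_antisymm (Subgroup.card_le_card_group _) (Z.out.trans ?_))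
  have h1 := pow_orderOf_eq_one (QuotientGroup.mk Z.θ : Out T)
  rw [← QuotientGroup.mk_pow, QuotientGroup.eq_one_iff] at h1
  obtain ⟨s, hs⟩ := h1
  rw [Nat.card_zpowers]
  exact Nat.le_of_dvd (orderOf_pos _) (Z.inn s _ hs.symm)

theorem aut (α : MulAut T) : ∃ s i, α = MulAut.conj s * Z.θ ^ (i : ℕ) := by
  obtain ⟨i, hi⟩ := (mem_powers_iff_mem_zpowers).2
    (Z.zpowers_eq ▸ Subgroup.mem_top (QuotientGroup.mk α : Out T))
  have h1 : α * (Z.θ ^ i)⁻¹ ∈ Inn T := by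
    rw [← QuotientGroup.eq_one_iff, QuotientGroup.mk_mul, QuotientGroup.mk_inv, QuotientGroup.mk_pow, ← hi,
      mul_inv_cancel]
  obtain ⟨s, hs⟩ := h1
  exact ⟨s, i, by rw [hs, inv_mul_cancel_right]⟩

/-- the group `U ⟨θ⟩` -/
noncomputable def Γ : Subgroup (MulAut T) := finSub
  { carrier := {α | ∃ u ∈ M.E.U, ∃ i : ℕ, α = MulAut.conj u * Z.θ ^ i}
    one_mem' := ⟨1, one_mem _, 0, by simp⟩
    mul_mem' := by
      rintro _ _ ⟨u, hu, i, rfl⟩ ⟨v, hv, j, rfl⟩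
      exact ⟨u * (Z.θ ^ i) v, mul_mem hu (Z.pow_U i hv), i + j, MulEquiv.ext fun t => by
        simp [pow_add, mul_assoc]⟩ }

theorem not_dvd : ¬ p ∣ Z.Γ.relIndex ⊤ := by
  rw [relIndex_eq_index_comap (K := Z.Γ) (L := ⊤) MulAut.conj (fun _ => trivial) fun α _ => by
    obtain ⟨s, i, rfl⟩ := Z.aut α
    exact ⟨s, 1, one_mem _, i, by simp⟩]
  exact fun h => M.syl (h.trans (Subgroup.index_dvd_of_le fun u hu => ⟨u, hu, 0, by simp⟩))

theorem hs_θ (hF : C.Fa) (hP : M.Pow C) {b : Bool} (h : Hs M Z.sh ρ ψ b) :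
    Hs M Z.sh ρ (ψ.comp Z.θ.toMonoidHom) (!b) := by
  obtain ⟨n, hn, a, i, h1, h2⟩ := h
  obtain ⟨i, rfl⟩ := Z.τ.surjective i
  rw [M.mem_N] at hn
  let n' : Fin M.f → ι → ℕ := fun a j => n ((M.rot (Z.sh j).toNat).symm a) (Z.τ j)
  have h3 : n' ∈ M.pats := M.mem_pats.2 fun a j => M.mem_pats.1 hn.1 _ _
  have h4 := (trf_of hF hP hF hP h3 hn.1 (e := Z.θ) fun s => ?_).mult (ρ.comp ψ)
  · exact ⟨n', (M.mem_N _ _).2 ⟨h3, h4.trans_ne hn.2⟩, M.rot (Z.sh i).toNat a, i, by rw [← h1, Z.sh_τ, Bool.not_not],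
      by simpa [n'] using h2⟩
  simp only [Std.cP, H45.UniE.FDat.cc, M.ΦT_apply, M.Δ_iter]
  rw [prod_comm, prod_comm (s := univ) (t := univ) (f := fun (a : Fin M.f) i => (D.Δ i (M.φ s) ^ p ^ (a : ℕ)) ^ n' a i),
    ← Equiv.prod_comp Z.τ]
  refine prod_congr rfl fun j _ => ?_
  rw [← Equiv.prod_comp (M.rot (Z.sh j).toNat) fun a : Fin M.f => (D.Δ j (M.φ s) ^ p ^ (a : ℕ)) ^ n' a j]
  refine prod_congr rfl fun a _ => ?_
  have h5 : D.Δ j (M.φ s) ^ p ^ M.f = D.Δ j (M.φ s) := by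
    rw [← M.Δ_iter, ← M.gr_one (M.Fr^[M.f] _), ← Z.gr1 M.σ, M.φ_fix]
  simp only [n', Equiv.symm_apply_apply]
  rw [Z.Δ_θ, ← pow_mul _ (p ^ _) (p ^ _), ← pow_add, add_comm, ← pow_pow_mod h5]
  rfl

theorem hs_pow (hF : C.Fa) (hP : M.Pow C) {b : Bool} (h : Hs M Z.sh ρ ψ b) (j : ℕ) :
    Hs M Z.sh ρ (ψ.comp (Z.θ ^ (2 * j + 1)).toMonoidHom) (!b) := by
  induction j with
  | zero => simpa using Z.hs_θ hF hP h
  | succ j ih =>
    have h1 := Z.hs_θ hF hP (Z.hs_θ hF hP ih)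
    rwa [Bool.not_not] at h1

theorem hs_inv (hF : C.Fa) (hP : M.Pow C) {b : Bool} (h : Hs M Z.sh ρ (ψ.comp Z.θ.toMonoidHom) b) :
    Hs M Z.sh ρ ψ (!b) := by
  have h1 := Z.hs_pow hF hP h (M.f - 1)
  have h2 : Z.θ * Z.θ ^ (2 * (M.f - 1) + 1) = 1 := by
    rw [← pow_succ', ← Z.pow_f]
    congr 1
    have := M.f_pos
    omega
  rwa [show (ψ.comp Z.θ.toMonoidHom).comp (Z.θ ^ (2 * (M.f - 1) + 1)).toMonoidHom = ψ from
    MonoidHom.ext fun t => congrArg ψ (DFunLike.congr_fun h2 t)] at h1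

theorem acts {y : Y} {s : T} {j : ℕ} (h : ∀ t, y * ψ t * y⁻¹ = ψ ((MulAut.conj s * Z.θ ^ (2 * j)) t)) :
    M.Acts ψ y s 1 1 j := Std.acts_of' (Commute.one_left _) fun t t' e => by
  rw [h, ← M.φ_inj (show M.φ (s * (Z.θ ^ (2 * j)) t * s⁻¹) = M.φ t' by rw [e, map_mul, map_mul, map_inv, Z.pow_two])]
  rfl

/-- only short nodes occur -/
theorem short (X : Cty M C ρ ψ irrK) (hM : M.Full fun l => ∀ i, Z.sh i = false → l i = 0) (hρ : Function.Injective ρ)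
    (hβ : ∀ y, ∃ α : MulAut T, ∀ t, y * ψ t * y⁻¹ = ψ (α t)) (hc : ∀ y, (∀ s, y * ψ s * y⁻¹ = ψ s) → y ∈ ψ.range)
    (h : ¬ Hs M Z.sh ρ ψ false) {A : Subgroup Y} (hA : Off p ρ A)
    (hmin : ∀ B < A, B ≠ ⊥ → Nat.card B ^ 2 < p ^ cod ρ B) (hΓ : ∀ a ∈ A, ∃ α ∈ Z.Γ, ∀ t, a * ψ t * a⁻¹ = ψ (α t)) :
    Std.Inner p ρ ψ ∨ ¬ irrK ∧ Cub ρ A := by
  have h1 : Hs M Z.sh ρ ψ true := by
    obtain ⟨n, hn⟩ := X.N_nonempty
    obtain ⟨a, ha⟩ := Function.ne_iff.1 (X.ne_zero hn)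
    obtain ⟨i, hi⟩ := Function.ne_iff.1 ha
    exact ⟨n, hn, a, i, by_contra fun h1 => h ⟨n, hn, a, i, by simpa using h1, hi⟩, hi⟩
  have h2 : ∀ y s i, (∀ t, y * ψ t * y⁻¹ = ψ ((MulAut.conj s * Z.θ ^ (i : ℕ)) t)) → ∃ j, M.Acts ψ y s 1 1 j := by
    intro y s i hy
    obtain ⟨j, rfl | rfl⟩ := Nat.even_or_odd' i
    · exact ⟨j, Z.acts hy⟩
    · obtain ⟨n, hn, h2⟩ := Z.hs_pow X.cfa X.pow h1 j
      rw [M.mem_N, mult_conj M ρ (ψ := ψ) (y := (ψ s)⁻¹ * y) fun t => by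
        rw [mul_inv_rev, mul_assoc _ y, mul_assoc, ← mul_assoc (y * _), hy]
        simp [mul_assoc], ← M.mem_N] at hn
      exact (h ⟨n, hn, h2⟩).elim
  refine (X.ctx hM (fun n hn a _ i hi => by_contra fun h3 => h ⟨n, hn, a, i, hi, h3⟩) hρ (fun y => ?_) hc).main hA hmin
    fun a ha => ?_
  · obtain ⟨α, hα⟩ := hβ y
    obtain ⟨s, i, rfl⟩ := Z.aut α
    obtain ⟨j, hj⟩ := h2 y s i hα
    exact ⟨s, 1, 1, j, hj⟩
  · obtain ⟨_, ⟨u, hu, i, rfl⟩, hα⟩ := hΓ a ha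
    obtain ⟨j, hj⟩ := h2 a u i hα
    exact ⟨1, j, u, hu, hj⟩

/-- both kinds of nodes occur -/
theorem mixed (X : Cty M C ρ ψ irrK) {m : ℕ} (hm : 0 < m) (hM : Mix D.R p k Z.sh m) (hψ : Function.Injective ψ)
    (hc : ∀ y, (∀ s, y * ψ s * y⁻¹ = ψ s) → y ∈ ψ.range) (h1 : Hs M Z.sh ρ ψ true) (h2 : Hs M Z.sh ρ ψ false)
    {A : Subgroup Y} (hA : Off p ρ A) (hΓ : ∀ a ∈ A, ∃ α ∈ Z.Γ, ∀ t, a * ψ t * a⁻¹ = ψ (α t))
    (hK : A ≤ ψ.range ∨ 3 ≤ M.f * m ∧ Nat.card A ≤ p * Nat.card ↥(A ⊓ ψ.range)) : False := by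
  have := X.fd
  obtain ⟨r, hr0, hr, hcod⟩ := hA.exists_card
  have h3 : (A.comap ψ).map ψ = A ⊓ ψ.range := by rw [Subgroup.map_comap_eq, inf_comm]
  have h4 : ∀ s, 0 < s → Nat.card ↥(A ⊓ ψ.range) = p ^ s → 2 * s + M.f * m ≤ cod ρ A := fun s hs0 hs => by
    refine (mix_le X Z.gr1 hM h1 h2 (B := A.comap ψ) (fun t ht => ?_) (fun x hx y hy => hψ ?_) hs0 ?_).trans
      (cod_mono (h3 ▸ inf_le_left))
    · obtain ⟨_, ⟨u, hu, i, rfl⟩, hα⟩ := hΓ _ ht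
      have h4 := (Z.pow_eq_one (d := i) (s := u⁻¹ * t) (MulEquiv.ext fun x => by
        have h4 := hα x
        rw [← map_inv, ← map_mul, ← map_mul] at h4
        have h5 : t * x * t⁻¹ = u * (Z.θ ^ i) x * u⁻¹ := hψ h4
        rw [MulAut.conj_apply, mul_inv_rev, mul_assoc _ t, mul_assoc, ← mul_assoc (t * x), h5]
        group)).2
      rwa [← inv_mul_eq_one.1 h4]
    · rw [map_mul, map_mul]
      exact elemAb_comm hA.1 hx hy
    · rw [← hs, ← h3, Subgroup.card_map_of_injective hψ]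
  have h5 := Nat.mul_pos M.f_pos hm
  by_cases h6 : A ≤ ψ.range
  · have := h4 r hr0 (by rwa [inf_eq_left.2 h6])
    omega
  obtain ⟨h7, h8⟩ := hK.resolve_left h6
  obtain ⟨s, rfl, hs⟩ := card_step hr (inf_lt_left.2 h6) h8
  rcases Nat.eq_zero_or_pos s with rfl | h9
  swap
  · have := h4 s h9 hs
    omega
  obtain ⟨a, ha, h9⟩ := SetLike.not_le_iff_exists.1 h6
  obtain ⟨_, ⟨u, hu, i, rfl⟩, hα⟩ := hΓ a ha
  obtain ⟨x, hx, h10⟩ : ∃ x ∈ M.E.U, u * (Z.θ ^ i) x * u⁻¹ ≠ x := by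
    obtain ⟨j, rfl | rfl⟩ := Nat.even_or_odd' i
    swap
    · exact Z.odd u hu j
    by_contra h10
    push Not at h10
    have : Nonempty Φ := by
      obtain ⟨-, -, -, i, -⟩ := h1
      exact ⟨D.zi i⟩
    have h11 := (M.triv_U X.deg1 X.fa (M.tw_Tw _ _) (Nat.mod_lt j M.f_pos) (M.φ_U hu) fun x hx => by
      rw [← M.tw_mod 1 j, ← Z.pow_two, ← map_inv, ← map_mul, ← map_mul, h10 x hx]).1
    obtain ⟨c, rfl⟩ := Nat.dvd_of_mod_eq_zero h11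
    rw [← mul_assoc, pow_mul, Z.pow_f, one_pow, mul_one] at hα
    refine h9 ((mul_mem_cancel_left (inv_mem (show ψ u ∈ ψ.range from ⟨u, rfl⟩))).1 (hc _ fun t => ?_))
    rw [mul_inv_rev, mul_assoc _ a, mul_assoc, ← mul_assoc (a * _), hα]
    simp [mul_assoc]
  have h11 : Subgroup.zpowers (u * (Z.θ ^ i) x * u⁻¹ * x⁻¹) ≤ M.E.U :=
    (Subgroup.zpowers_le).2 (mul_mem (mul_mem (mul_mem hu (Z.pow_U i hx)) (inv_mem hu)) (inv_mem hx))
  have h12 := Subgroup.card_dvd_of_le h11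
  rw [M.card_U, ← pow_mul] at h12
  obtain ⟨r', -, h12⟩ := (Nat.dvd_prime_pow hp.out).1 h12
  have h14 : 0 < r' := Nat.pos_of_ne_zero fun e => h10 (by
    rwa [e, pow_zero, Subgroup.card_eq_one, Subgroup.zpowers_eq_bot, mul_inv_eq_one] at h12)
  have h13 := mix_le X Z.gr1 hM h1 h2 h11 (by rintro _ ⟨i, rfl⟩ _ ⟨j, rfl⟩; exact zpow_mul_comm _ i j) h14 h12
  rw [MonoidHom.map_zpowers, map_mul, map_inv, show ψ (u * (Z.θ ^ i) x * u⁻¹) = a * ψ x * a⁻¹ from (hα x).symm] at h13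
  have h15 := cod_zpowers_commutator_le (ρ := ρ) a (ψ x)
  have h16 := cod_mono (ρ := ρ) ((Subgroup.zpowers_le).2 ha)
  omega

end Sx

end Cfsg.Agent.TwoF.DC.TF
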