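import Cfsg.Agent.TwoF.DC.TFG.Sp
import Cfsg.Agent.TwoF.DC.Pow.Main
import Cfsg.Agent.TwoF.DC.Close
import Cfsg.Agent.H816.OutEmb

/-!
# TwoF, defining characteristic: groups with a special isogeny (2), type free (helper25)

`Sx.row` : the row; `Isg D` : the isogeny of the algebraic group; `Isg.row` : the row from it.
-/

set_option autoImplicit false
set_option linter.unusedSectionVars false
set_option linter.unusedVariables false
set_option maxHeartbeats 400000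

namespace Cfsg.Agent.TwoF.DC.TF

open Module Finset Cfsg.Agent.TwoF.Gen Cfsg.Agent.TwoF.DC.TC

variable {p : ℕ} [hp : Fact p.Prime] {ι Φ k G : Type} [Fintype ι] [DecidableEq ι] [Fintype Φ] [DecidableEq Φ] [Field k]
  [IsAlgClosed k] [CharP k p] [Group G] {D : RDat p ι Φ k G} {T S : Type} [Group T] [Finite T] [Group S]
  {Y U : Type} [Group Y] [Finite Y] [AddCommGroup U] [Module k U]

theorem range_aut (ψ : T →* Y) (g : MulAut T) : (ψ.comp g.toMonoidHom).range = ψ.range := by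
  rw [MonoidHom.range_comp, MonoidHom.range_eq_top.2 g.surjective, ← MonoidHom.range_eq_map]

namespace Sx

variable {M : Std D T S} {C : Can D} {ρ : Representation k Y U} {ψ : T →* Y} {irrK : Prop} (Z : Sx M)

include Z in
/-- the outer part of an elementary abelian group is cyclic -/
theorem step {β : Y →* MulAut T} (hβ : ∀ y t, y * ψ t * y⁻¹ = ψ (β y t))
    (hc : ∀ y, (∀ s, y * ψ s * y⁻¹ = ψ s) → y ∈ ψ.range) {A : Subgroup Y} (hA : IsElementaryAbelian p A) :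
    A ≤ ψ.range ∨ p ∣ 2 * M.f ∧ Nat.card A ≤ p * Nat.card ↥(A ⊓ ψ.range) := by
  classical
  let φ : Y →* Out T := (QuotientGroup.mk' (Inn T)).comp β
  have h1 : φ.ker ≤ ψ.range := fun y hy => by
    obtain ⟨s, hs⟩ := (QuotientGroup.eq_one_iff _).1 hy
    refine (mul_mem_cancel_left (inv_mem (show ψ s ∈ ψ.range from ⟨s, rfl⟩))).1 (hc _ fun t => ?_)
    rw [mul_inv_rev, mul_assoc _ y, mul_assoc, ← mul_assoc (y * _), hβ, ← hs]
    simp [mul_assoc]
  have h2 : ∀ a ∈ A, φ a ^ p = 1 := fun a ha => by rw [← map_pow, hA.2 a ha, map_one]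
  refine or_iff_not_imp_left.2 fun h => ⟨?_, ?_⟩
  · obtain ⟨a, ha, h3⟩ := SetLike.not_le_iff_exists.1 h
    refine (orderOf_eq_prime (h2 a ha) fun e => h3 (h1 e)).symm.dvd.trans (orderOf_dvd_of_pow_eq_one ?_)
    obtain ⟨i, hi⟩ := (Z.zpowers_eq ▸ Subgroup.mem_top (φ a) : φ a ∈ Subgroup.zpowers _)
    rw [← hi, ← zpow_natCast, ← zpow_mul, mul_comm, zpow_mul, zpow_natCast, ← QuotientGroup.mk_pow, Z.pow_f,
      QuotientGroup.mk_one, one_zpow]
  · have : IsCyclic (Out T) := isCyclic_iff_exists_zpowers_eq_top.2 ⟨_, Z.zpowers_eq⟩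
    have := Fintype.ofFinite (Out T)
    have h3 : Nat.card (A.map φ) ≤ p := by
      refine le_trans ?_ (IsCyclic.card_pow_eq_one_le (α := Out T) hp.out.pos)
      rw [← Nat.subtype_card _ fun x => Iff.rfl]
      refine Nat.card_le_card_of_injective (fun x => ⟨x.1, ?_⟩) fun x y e => Subtype.ext (congrArg (·.1) e)
      obtain ⟨_, a, ha, rfl⟩ := x
      exact mem_filter.2 ⟨mem_univ _, h2 a ha⟩
    rw [← Subgroup.index_mul_card (φ.ker.subgroupOf A)]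
    refine Nat.mul_le_mul ((Subgroup.relIndex_ker A φ).le.trans h3) ?_
    exact Nat.card_le_card_of_injective (fun x => ⟨x.1.1, x.1.2, h1 x.2⟩) fun x y e =>
      Subtype.ext (Subtype.ext (congrArg (·.1) e))

/-- **the outer theorem** -/
theorem main {m : ℕ} (hm : 0 < m) (hX : Mix D.R p k Z.sh m) (hM : M.Full fun l => ∀ i, Z.sh i = false → l i = 0)
    (hf : p ∣ 2 * M.f → 3 ≤ M.f * m) (X : ∀ g : MulAut T, Cty M C ρ (ψ.comp g.toMonoidHom) irrK)
    (hρ : Function.Injective ρ) (hψ : Function.Injective ψ) {β : Y →* MulAut T} (hβ : ∀ y t, y * ψ t * y⁻¹ = ψ (β y t))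
    (hc : ∀ y, (∀ s, y * ψ s * y⁻¹ = ψ s) → y ∈ ψ.range) {A : Subgroup Y} (hA : Off p ρ A)
    (hmin : ∀ B < A, B ≠ ⊥ → Nat.card B ^ 2 < p ^ cod ρ B) : Std.Inner p ρ ψ ∨ ¬ irrK ∧ Cub ρ A := by
  obtain ⟨g, -, hg⟩ := exists_conj_le Z.not_dvd ((elemAb_isPGroup hA.1).map β) le_top
  have h1 : ∀ (g : MulAut T) y t, y * ψ.comp g.toMonoidHom t * y⁻¹ = ψ.comp g.toMonoidHom ((g⁻¹ * β y * g) t) :=
    fun g y t => (hβ y _).trans (congrArg ψ (MulAut.apply_inv_self T g _).symm)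
  have h2 : ∀ (g : MulAut T) y, (∀ s, y * ψ.comp g.toMonoidHom s * y⁻¹ = ψ.comp g.toMonoidHom s) →
      y ∈ (ψ.comp g.toMonoidHom).range := fun g y h => by
    rw [range_aut]
    exact hc y fun s => by obtain ⟨s, rfl⟩ := g.surjective s; exact h s
  have h3 : ∀ g : MulAut T, ¬ Hs M Z.sh ρ (ψ.comp g.toMonoidHom) false → (∀ a ∈ A, g⁻¹ * β a * g ∈ Z.Γ) →
      Std.Inner p ρ ψ ∨ ¬ irrK ∧ Cub ρ A := fun g h h' => by
    rw [Std.Inner, ← range_aut ψ g]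
    exact Z.short (X g) hM hρ (fun y => ⟨_, h1 g y⟩) (h2 g) h hA hmin fun a ha => ⟨_, h' a ha, h1 g a⟩
  have h4 : ∀ a ∈ A, g⁻¹⁻¹ * β a * g⁻¹ ∈ Z.Γ := fun a ha => hg _ ⟨a, ha, rfl⟩
  by_cases h5 : Hs M Z.sh ρ (ψ.comp (g⁻¹).toMonoidHom) false
  swap
  · exact h3 _ h5 h4
  by_cases h6 : Hs M Z.sh ρ (ψ.comp (g⁻¹).toMonoidHom) true
  · refine (Z.mixed (X _) hm hX (hψ.comp g⁻¹.injective) (h2 _) h6 h5 hA (fun a ha => ⟨_, h4 a ha, h1 _ a⟩) ?_).elim
    rw [range_aut]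
    exact (Z.step hβ hc hA.1).imp_right fun h => ⟨hf h.1, h.2⟩
  have h7 : Z.θ ∈ Z.Γ := ⟨1, one_mem _, 1, by simp⟩
  refine h3 (g⁻¹ * Z.θ) (fun h => h6 (Z.hs_inv (b := false) (X 1).cfa (X 1).pow h)) fun a ha => ?_
  rw [show (g⁻¹ * Z.θ)⁻¹ * β a * (g⁻¹ * Z.θ) = Z.θ⁻¹ * (g⁻¹⁻¹ * β a * g⁻¹) * Z.θ by group]
  exact mul_mem (mul_mem (inv_mem h7) (h4 a ha)) h7

theorem row {m : ℕ} (hm : 0 < m) (hX : Mix D.R p k Z.sh m) (hM : M.Full fun l => ∀ i, Z.sh i = false → l i = 0)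
    (hf : p ∣ 2 * M.f → 3 ≤ M.f * m) {S' : Type} [Group S']
    (hc : ∀ (K : Type) [Group K] [Finite K], IsQuasisimple K → ¬ p ∣ Nat.card (Subgroup.center K) →
      Nonempty (K ⧸ Subgroup.center K ≃* S') → Nonempty (T ≃* K)) : Row p S' := by
  let _ : Algebra (ZMod p) k := ZMod.algebra k p
  obtain ⟨C⟩ := boxHW p ι Φ k G D
  have hC := C.fa_of_full hM
  have hP := Pw.boxPow p ι Φ k G D T S M C
  have key : ∀ (Y : Type) [Group Y] [Finite Y] (V : Type) [AddCommGroup V] [Module (ZMod p) V] [Finite V]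
      (K : Subgroup Y) (ρ : Representation (ZMod p) Y V), Stp p K ρ → Nonempty (K ⧸ Subgroup.center K ≃* S') →
      ∀ A, Off p ρ A → (∃ B ≤ K, Off p ρ B ∧ Cub ρ B) ∨ ¬ Irr ρ K ∧ ∃ B, Off p ρ B ∧ Cub ρ B := by
    intro Y _ _ V _ _ _ K ρ hs he A hA
    obtain ⟨e⟩ := hc K hs.qs hs.cop he
    obtain ⟨A, -, hA, hmin⟩ := exists_min_off ((off_bc k A).2 hA)
    have := hs.normal
    have := hs.nontrivial
    have h1 : (K.subtype.comp e.toMonoidHom).range = K := by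
      rw [MonoidHom.range_comp, MonoidHom.range_eq_top.2 e.surjective, ← MonoidHom.range_eq_map, Subgroup.range_subtype]
    rcases Z.main (C := C) (irrK := Irr ρ K) (ψ := K.subtype.comp e.toMonoidHom)
      (β := (MulAut.congr e.symm).toMonoidHom.comp MulAut.conjNormal) hm hX hM hf
      (fun g => ⟨hC, boxDeg1 p ι Φ k G D, boxDeg2 p ι Φ k G D hC.fa, hP,
        boxSt p ι Φ k G D T S M C hC hP Y V K ρ hs _ ((range_aut _ g).trans h1), inferInstance,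
        Module.nontrivial_of_finrank_pos (R := k) (by rw [Module.finrank_baseChange]; exact finrank_pos)⟩)
      (bc_injective k hs.faithful) (K.subtype_injective.comp e.injective)
      (fun y t => congrArg Subtype.val (e.apply_symm_apply (MulAut.conjNormal y (e t))).symm) (fun y hy => by
        rw [h1]
        refine hs.cent fun x hx => ?_
        obtain ⟨s, rfl⟩ := h1.ge hx
        rw [← mul_inv_eq_iff_eq_mul.1 (hy s)]) hA hmin with ⟨B, h8, h9, h10⟩ | ⟨h8, h9⟩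
    · exact Or.inl ⟨B, h1 ▸ h8, (off_bc k B).1 h9, (cub_bc k B).1 h10⟩
    · exact Or.inr ⟨h8, A, (off_bc k A).1 hA, (cub_bc k A).1 h9⟩
  exact ⟨fun Y _ _ V _ _ _ K ρ hs he A hA => (key Y V K ρ hs he A hA).elim (fun ⟨B, _, h⟩ => ⟨B, h⟩) fun h => h.2,
    fun Y _ _ V _ _ _ K ρ hs he A hA hirr _ _ _ =>
      (key Y V K ρ hs he A hA).elim (fun ⟨B, h, h', _⟩ => ⟨B, h, h'⟩) fun h => (h.1 hirr).elim⟩

end Sx

theorem x_ne (hF : D.Fa) {i j : ι} (hij : i ≠ j) (h : D.ht (D.zi i) ≤ D.ht (D.zi j)) {u : G} (hu : u ∈ D.U) (t : k) :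
    u * D.x j t * u⁻¹ ≠ D.x i 1 := fun e => by
  have h1 : D.Lead (D.x i 1) (D.ht (D.zi i)) (Pi.single (D.zi i) 1) := D.x_eq i 1 ▸ RDat.lead_z rfl 1
  rw [← e, D.x_eq] at h1
  rcases h.eq_or_lt with h | h
  · have h2 := congrFun (RDat.Lead.unique hF h1 ((RDat.lead_z h.symm t).conj hu)) (D.zi i)
    rw [Pi.single_eq_same, Pi.single_eq_of_ne fun e => hij (D.R.zi_inj (D.zi_eq ▸ e))] at h2
    exact one_ne_zero h2
  · simpa using congrFun (RDat.Lead.unique hF h1 ((RDat.lead_zero (D.z_mem_Uge h t)).conj hu)) (D.zi i)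

/-- a special isogeny of the algebraic group -/
structure Isg (D : RDat p ι Φ k G) where
  sh : ι → Bool
  τ : Equiv.Perm ι
  sh_τ : ∀ i, sh (τ i) = !sh i
  τ_τ : ∀ i, τ (τ i) = i
  θ : Monoid.End G
  θ_x : ∀ i t, θ (D.x i t) = D.x (τ i) (t ^ p ^ (sh i).toNat)
  θ_y : ∀ i t, θ (D.y i t) = D.y (τ i) (t ^ p ^ (sh i).toNat)
  θ_U : ∀ u ∈ D.U, θ u ∈ D.U

namespace Isg

variable (I : Isg D)

theorem τ_ne (i : ι) : I.τ i ≠ i := fun e => by simpa [e] using I.sh_τ i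

theorem θ_τ (g : G) : I.θ (D.τ g) = D.τ (I.θ g) := by
  have hg : g ∈ Subgroup.closure {g | ∃ i s, g = D.x i s ∨ g = D.y i s} := by rw [D.gen]; trivial
  induction hg using Subgroup.closure_induction with
  | mem g hg =>
    obtain ⟨i, t, rfl | rfl⟩ := hg
    · rw [D.τ_x, I.θ_x, I.θ_y, D.τ_x]
    · rw [D.τ_y, I.θ_x, I.θ_y, D.τ_y]
  | one => rw [D.τ_one, map_one, D.τ_one]
  | mul a b _ _ h1 h2 => rw [D.τ_mul, map_mul, map_mul, D.τ_mul, h1, h2]
  | inv a _ h1 => rw [D.τ_inv, map_inv, map_inv, D.τ_inv, h1]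

theorem θ_Um (u : G) (hu : u ∈ D.Um) : I.θ u ∈ D.Um := by
  rw [← D.τ_τ u, θ_τ]
  exact D.τ_U (I.θ_U _ (D.τ_Um hu))

theorem θ_κ (c : ι → kˣ) : I.θ (D.κ c) = D.κ fun i => c (I.τ i) ^ p ^ (I.sh (I.τ i)).toNat := by
  induction c using Pi.mulSingle_induction with
  | one => simp only [map_one, Pi.one_apply, one_pow]; exact (map_one D.κ).symm
  | mul a b ha hb => rw [map_mul, map_mul, ha, hb, ← map_mul]; exact congrArg D.κ (funext fun i => (mul_pow _ _ _).symm)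
  | mulSingle j c =>
    have h : I.θ (D.hh j c) = D.hh (I.τ j) (c ^ p ^ (I.sh j).toNat) := by
      rw [D.hh_eq, D.hh_eq, map_mul, map_mul, map_mul, θ_x, θ_x, θ_y, θ_y, Units.val_pow_eq_pow_val]
      simp only [← iterateFrobenius_def, map_neg, map_div₀, map_sub, map_one]
    rw [D.κ_single, h, ← D.κ_single]
    congr 1
    funext i
    obtain ⟨i, rfl⟩ := I.τ.surjective i
    rw [I.τ_τ, Pi.mulSingle_apply, Pi.mulSingle_apply]
    simp only [EmbeddingLike.apply_eq_iff_eq]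
    split_ifs with h
    · rw [h]
    · exact (one_pow _).symm

theorem Δ_θ (i : ι) (g : G) : D.Δ (I.τ i) (I.θ g) = D.Δ i g ^ p ^ (I.sh i).toNat := by
  refine D.dens_TorK (f := fun g => D.Δ (I.τ i) (I.θ g)) (f' := fun g => D.Δ i g ^ p ^ (I.sh i).toNat)
    (fun j g h => ?_) (fun j g h => ?_) (fun v hv t ht u hu => ?_) g
  · obtain ⟨P, -, hP⟩ := D.pol_y (I.τ i) (I.τ j) (I.θ g) (I.θ h)
    exact ⟨P.comp (Polynomial.X ^ p ^ (I.sh j).toNat), fun s => by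
      rw [map_mul, map_mul, θ_y, hP, Polynomial.eval_comp, Polynomial.eval_pow, Polynomial.eval_X]⟩
  · obtain ⟨P, -, hP⟩ := D.pol_y i j g h
    exact ⟨P ^ _, fun s => by rw [hP, Polynomial.eval_pow]⟩
  · obtain ⟨c, rfl⟩ := ht
    show D.Δ (I.τ i) (I.θ (v * D.κ c * u)) = D.Δ i (v * D.κ c * u) ^ _
    rw [map_mul, map_mul, D.Δ_cell _ (I.θ_Um _ (D.Um0_le hv)) (I.θ_U _ (D.U0_le hu)),
      D.Δ_cell _ (D.Um0_le hv) (D.U0_le hu), θ_κ, D.Δ_κ, D.Δ_κ, I.τ_τ, Units.val_pow_eq_pow_val]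

theorem pow_x (d : ℕ) (i : ι) : (I.θ ^ d) (D.x i 1) = D.x ((I.τ ^ d) i) 1 := by
  induction d with
  | zero => rfl
  | succ d ih => rw [pow_succ', pow_succ', Monoid.End.coe_mul, Function.comp_apply, ih, θ_x, one_pow]; rfl

theorem τ_odd (j : ℕ) : I.τ ^ (2 * j + 1) = I.τ := by
  rw [pow_succ, pow_mul, show I.τ ^ 2 = 1 from Equiv.ext I.τ_τ, one_pow, one_mul]

theorem exists_node [Nonempty ι] : ∃ i, D.ht (D.zi i) ≤ D.ht (D.zi (I.τ i)) := by
  obtain ⟨i⟩ := ‹Nonempty ι›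
  exact (le_total _ _).elim (⟨i, ·⟩) fun h => ⟨I.τ i, by rwa [I.τ_τ]⟩

variable (P : Tws D)

theorem sq : I.θ ^ 2 = P.FrE := by
  have h : ∀ i, (I.sh i).toNat + (I.sh (I.τ i)).toNat = 1 := fun i => by rw [I.sh_τ]; cases I.sh i <;> rfl
  refine D.hom_ext (fun i t => ?_) fun i t => ?_
  · change I.θ (I.θ _) = P.Fr _
    rw [θ_x, θ_x, I.τ_τ, ← pow_mul, ← pow_add, h, pow_one, D.x_eq, D.x_eq, P.Fr_z]
  · change I.θ (I.θ _) = P.Fr _
    rw [θ_y, θ_y, I.τ_τ, ← pow_mul, ← pow_add, h, pow_one, P.Fr_y]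

theorem even (j : ℕ) (g : G) : (I.θ ^ (2 * j)) g = P.GF 1 j g := by
  rw [pow_mul, I.sq P, Tws.GF, map_one]; rfl

variable (hG : ∀ γ : P.Gr, γ = 1)

include hG

theorem mem_Fx {g : G} : g ∈ P.Fx ↔ (I.θ ^ (2 * P.f)) g = g := by rw [I.even P, ← hG P.σ]; rfl

theorem θ_Fx {g : G} (hg : g ∈ P.Fx) : I.θ g ∈ P.Fx := by
  rw [I.mem_Fx P hG] at hg ⊢
  exact (DFunLike.congr_fun ((Commute.refl I.θ).pow_left _).eq g).trans (congrArg I.θ hg)

theorem θ_TT {g : G} (hg : g ∈ P.TT) : I.θ g ∈ P.TT := by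
  refine (Subgroup.closure_le (K := P.TT.comap I.θ)).2 ?_ hg
  rintro u ⟨hu | hu, hu'⟩
  · exact P.mem_TT_U (I.θ_U _ hu) (I.θ_Fx P hG hu')
  · exact P.mem_TT_Um (I.θ_Um _ hu) (I.θ_Fx P hG hu')

theorem exists_θ [Finite P.TT] : ∃ θ : MulAut P.TT, ∀ (d : ℕ) s, ((θ ^ d) s : G) = (I.θ ^ d) s := by
  let φ : P.TT →* P.TT := (MonoidHom.comp I.θ P.TT.subtype).codRestrict P.TT fun s => I.θ_TT P hG s.2
  have h : Function.Injective φ := (injective_iff_map_eq_one _).2 fun s hs => Subtype.ext (by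
    have h1 := (I.mem_Fx P hG).1 (P.TT_le_Fx s.2)
    have h2 : I.θ s = 1 := congrArg Subtype.val hs
    have := P.f_pos
    rw [show 2 * P.f = 2 * P.f - 1 + 1 by omega, pow_succ, Monoid.End.coe_mul, Function.comp_apply, h2, map_one] at h1
    exact h1.symm)
  refine ⟨MulEquiv.ofBijective φ ⟨h, Finite.surjective_of_injective h⟩, fun d s => ?_⟩
  induction d with
  | zero => rfl
  | succ d ih => rw [pow_succ', pow_succ', Monoid.End.coe_mul, Function.comp_apply, ← ih]; rfl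

theorem dvd_of_inn [Nonempty ι] (hF : D.Fa) {s : G} (hs : s ∈ P.TT) {d : ℕ}
    (h : ∀ g ∈ P.TT, s * g * s⁻¹ = (I.θ ^ d) g) : 2 * P.f ∣ d := by
  obtain ⟨j, rfl | rfl⟩ := Nat.even_or_odd' d
  · have h1 : ∀ a g, P.dl 1 1 a g = (I.θ ^ (2 * a)) g := fun a g => by
      rw [P.dl_apply, map_one, one_mul, inv_one, mul_one, I.even P]
    have h2 := (P.dl_inj hF (c := 1) (c' := 1) (by rw [map_one]; exact one_mem _) (Commute.one_left _)
      (by rw [map_one]; exact one_mem _) (Commute.one_left _) P.f_pos (Nat.mod_lt j P.f_pos) hs fun g hg => by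
        rw [h1, h1]
        refine (h g hg).trans ?_
        conv_lhs => rw [← Nat.mod_add_div j P.f, mul_add, pow_add, ← mul_assoc, pow_mul _ (2 * P.f)]
        rw [Monoid.End.coe_mul, Function.comp_apply, Monoid.End.coe_pow _ (I.θ ^ _),
          Function.iterate_fixed ((I.mem_Fx P hG).1 (P.TT_le_Fx hg))]).2.1
    exact Nat.mul_dvd_mul_left 2 (Nat.dvd_of_mod_eq_zero h2.symm)
  · have h1 : ∀ K : Subgroup G, (∀ u ∈ K, I.θ u ∈ K) → ∀ d : ℕ, ∀ u ∈ K, (I.θ ^ d) u ∈ K := fun K hK d u hu => by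
      induction d with
      | zero => exact hu
      | succ d ih => rw [pow_succ']; exact hK _ ih
    have h2 := P.mem_H_of_norm hF hs (fun u hu => h u (P.mem_TT_U hu.1 hu.2) ▸ h1 _ I.θ_U _ u hu.1)
      fun u hu => h u (P.mem_TT_Um hu.1 hu.2) ▸ h1 _ I.θ_Um _ u hu.1
    rw [P.H_eq] at h2
    obtain ⟨c, -, rfl⟩ := h2
    obtain ⟨i, hi⟩ := I.exists_node
    have h3 := h _ (P.xy_mem_one (i := I.τ i) (a := 1) (by rw [Tws.sι, hG P.σ, map_one]; rfl) (one_pow _)).1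
    rw [pow_x, τ_odd, I.τ_τ, D.κ_x, mul_inv_cancel_right] at h3
    exact (x_ne hF (I.τ_ne i).symm hi (one_mem _) _ (by rw [one_mul, inv_one, mul_one, h3])).elim

/-- **the row of a group with a special isogeny** -/
theorem row [Nonempty ι] (hC : P.Comb fun l => ∀ i, I.sh i = false → l i = 0) {m : ℕ} (hm : 0 < m)
    (hX : Mix D.R p k I.sh m) (hf : p ∣ 2 * P.f → 3 ≤ P.f * m) (hS : IsSimpleGroup S) (hn : ¬ IsMulCommutative S)
    (e : P.TT ≃* S) {A : Type} [CommGroup A] (hA : HasSchurMultiplier S A) {a : ℕ} (hd : Nat.card A ∣ 1 * p ^ a)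
    (hO : Nat.card (Out S) ≤ 2 * P.f) : Row p S := by
  have hF := hC.fa
  have := P.finite_TT hF
  have h1 : e.toMonoidHom.ker = ⊥ := (MonoidHom.ker_eq_bot_iff _).2 e.injective
  have h2 : e.toMonoidHom.ker ≤ Subgroup.center P.TT := h1.le.trans bot_le
  have h3 := (ker_eq_center hS hn e.surjective h2).symm.trans h1
  have h4 := P.cover_of hF hS hn e.surjective h2 hA hd one_pos (by rw [← P.card_center hF]; exact Nat.card_pos)
  let M := P.std hF (1 : _ →* Unit) (fun _ => ⟨1, rfl⟩) (P.perfect_of hF (perfect_of_simple hS hn) e.surjective h2)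
    fun K _ _ hK _ e => (not_nontrivial _ (e.nontrivial_congr.1 hK.2.toNontrivial)).elim
  have hM : M.Full _ := P.full hF hC fun α =>
    ⟨1, 1, 1, 0, one_mem _, Commute.one_left _, fun s => ⟨s, by rw [M.gr_one]; simp, rfl⟩⟩
  obtain ⟨θ, hθ⟩ := I.exists_θ P hG
  have h5 : ∀ {u : P.TT}, (u : G) ∈ D.U → u ∈ M.E.U := M.mem_U_of (boxDeg1 p ι Φ k G D) hF
  obtain ⟨e'⟩ := H816.OutEmb.out_congr e
  let Z : Sx M :=
    { gr1 := hG
      sh := I.sh
      τ := I.τ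
      sh_τ := I.sh_τ
      θ := θ
      Δ_θ := fun i s => (congrArg (D.Δ _) (hθ 1 s)).trans (I.Δ_θ i s)
      θ_θ := fun s => (hθ 2 s).trans (DFunLike.congr_fun (I.sq P) s.1)
      θ_U := fun u hu => h5 (by rw [← pow_one θ, hθ]; exact I.θ_U _ (M.φ_U hu))
      odd := fun u hu j => by
        obtain ⟨i, hi⟩ := I.exists_node
        refine ⟨⟨_, (P.xy_mem_one (i := i) (a := 1) (by rw [Tws.sι, hG P.σ, map_one]; rfl) (one_pow _)).1⟩,
          h5 (D.x_mem_U _ _), fun h => x_ne hF (I.τ_ne i).symm hi (M.φ_U hu) 1 ?_⟩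
        have h6 := congrArg Subtype.val h
        rwa [Subgroup.coe_mul, Subgroup.coe_mul, hθ, pow_x, τ_odd] at h6
      inn := fun s d h => I.dvd_of_inn P hG hF s.2 fun g hg => by
        rw [← hθ d ⟨g, hg⟩, h]; rfl
      cen := h3
      out := (Nat.card_congr e'.toEquiv).trans_le hO }
  refine Z.row hm hX hM hf fun K _ _ hK hp ⟨e₁⟩ => ?_
  obtain ⟨ψ, hψ, h9⟩ := h4 K hK hp e₁
  refine ⟨MulEquiv.ofBijective ψ ⟨(injective_iff_map_eq_one _).2 fun s hs => e.injective ?_, hψ⟩⟩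
  rw [map_one, ← MulEquiv.coe_toMonoidHom, ← h9, hs, QuotientGroup.mk_one, map_one]

end Isg

end Cfsg.Agent.TwoF.DC.TF
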